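import Cfsg.Agent.Lib.AltDoubleCent.Small
import Cfsg.Agent.Lib.AltDoubleCent.ThreeCycle
import Cfsg.Agent.Lib.AltDoubleCent.BigShortPerm
import Cfsg.Agent.Lib.AltDoubleCent.BigKernel
import Cfsg.Agent.Lib.FourTransitive.FourGroupOdd

/-!
Degree nine with a large core: the centralisers of `a * b` and of the involutions `z`, `t`, `t * z`.
-/

set_option autoImplicit false
set_option linter.unusedSectionVars false
set_option linter.style.haveILetI false

namespace CfsgLib.AltDoubleCent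

open Equiv

universe u

variable {G : Type u} [Group G] {n : ℕ} {z : G}

theorem eq_one_of_eq_inv {r : G} (h3 : r ^ 3 = 1) (h : r = r⁻¹) : r = 1 := by
  have h2 : r * r = 1 := eq_inv_iff_mul_eq_one.mp h
  rwa [pow_succ, pow_two, h2, one_mul] at h3

theorem conj_cube {r g : G} (h : r ^ 3 = 1) : (g * r * g⁻¹) ^ 3 = 1 := by
  rw [conj_pow, h, mul_one, mul_inv_cancel]

theorem commute_conj {x u g : G} (h : Commute x u) : Commute (g * x * g⁻¹) (g * u * g⁻¹) :=
  h.map (MulAut.conj g)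

theorem odd_of_cube {r : G} (h : r ^ 3 = 1) : Odd (orderOf r) :=
  Odd.of_dvd_nat (by decide) (orderOf_dvd_of_pow_eq_one h)

namespace Frame

variable {S : Setting G n z} {h9 : 9 ≤ n} (F : Frame S h9)

/-- `r` is an element of order dividing three centralising `a * b` and `u`. -/
def InP (u r : G) : Prop := r ^ 3 = 1 ∧ Commute r (F.a * F.b) ∧ Commute r u

/-- An element of `InP u` inverted by `z`. -/
def InM (u r : G) : Prop := F.InP u r ∧ z * r * z⁻¹ = r⁻¹

theorem mem_baseGroup_inP (h10 : n ≤ 10) {r : G} (hr : r ∈ F.baseGroup h10) : F.InP z r :=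
  ⟨F.pow3_of_mem h10 hr, F.baseGroup_mul_comm h10 hr (F.y_mem h10), F.baseGroup_comm h10 hr⟩

theorem cent_yz [Finite G] (hn : n = 9) (h10 : n ≤ 10) {r : G} (hz : Commute r z)
    (hy : Commute r (F.a * F.b)) :
    r ∈ F.baseGroup h10 ∨ r * z ∈ F.baseGroup h10 ∨ F.t * r ∈ F.baseGroup h10 ∨
      F.t * r * z ∈ F.baseGroup h10 := by
  subst hn
  obtain ⟨i, j, k, h⟩ := cent_y_perm h9 (S.sign_img r)
    (by rw [← F.img_y]; exact S.commute_img hz F.y_comm hy)
  have hw : F.a ^ i * F.b ^ j * F.c ^ k ∈ F.baseGroup h10 := ⟨i, j, k, rfl⟩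
  rcases h with h | h
  · rcases S.eq_or_eq_mul_z (F.baseGroup_comm h10 hw) hz (by rw [F.img_word, h]) with e | e
    · exact Or.inl (e ▸ hw)
    · exact Or.inr (Or.inl (by rw [e, mul_assoc, S.z_sq, mul_one]; exact hw))
  · rcases S.eq_or_eq_mul_z (F.baseGroup_comm h10 hw) (F.t_comm.mul_left hz)
      (by rw [F.img_word, S.img_mul F.t_comm hz, F.img_t, h]) with e | e
    · exact Or.inr (Or.inr (Or.inl (e ▸ hw)))
    · exact Or.inr (Or.inr (Or.inr (by rw [e, mul_assoc, S.z_sq, mul_one]; exact hw)))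

/-- Elements of odd order centralising `z` and `a * b` lie in `A`. -/
theorem odd_yz [Finite G] (hn : n = 9) (h10 : n ≤ 10) {r : G} (hz : Commute r z)
    (hy : Commute r (F.a * F.b)) (ho : Odd (orderOf r)) : r ∈ F.baseGroup h10 := by
  have hsq : r ^ 2 ∈ F.baseGroup h10 := by
    have key : ∀ m : G, F.t * r = m → m ∈ F.baseGroup h10 → r ^ 2 ∈ F.baseGroup h10 := by
      rintro m rfl hm
      have h := mul_mem (F.t_normalizes h10 hm) hm
      rwa [show F.t * (F.t * r) * F.t⁻¹ * (F.t * r) = F.t * F.t * r * r by group, F.t_sq, one_mul,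
        ← pow_two] at h
    rcases F.cent_yz hn h10 hz hy with h | h | h | h
    · exact pow_mem h 2
    · have h' := pow_mem h 2
      rwa [hz.mul_pow, pow_two z, S.z_sq, mul_one] at h'
    · exact key _ rfl h
    · have hm := F.baseGroup_comm h10 h
      have h2 := mul_mem (F.t_normalizes h10 h) h
      rwa [show F.t * (F.t * r * z) * F.t⁻¹ * (F.t * r * z) =
        F.t * F.t * r * (z * F.t⁻¹ * F.t) * r * z by group, F.t_sq, one_mul, mul_assoc z,
        inv_mul_cancel, mul_one, mul_assoc r z r, ← hz.eq, ← mul_assoc r r z, mul_assoc (r * r) z z,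
        S.z_sq, mul_one, ← pow_two] at h2
  obtain ⟨k, hk⟩ := ho
  have : r = (r ^ 2) ^ (k + 1) := by
    rw [← pow_mul, show 2 * (k + 1) = orderOf r + 1 by omega, pow_succ, pow_orderOf_eq_one, one_mul]
  rw [this]
  exact pow_mem hsq _

/-- `u` and `z` are moved to `z` and one of `t`, `t * z` inside the centraliser of `a * b`. -/
theorem transport [Finite G] (hn : n = 9) (h10 : n ≤ 10) {u : G} (hu : u = F.t ∨ u = F.t * z) :
    ∃ h : G, Commute h (F.a * F.b) ∧ h * u * h⁻¹ = z ∧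
      (h * z * h⁻¹ = F.t ∨ h * z * h⁻¹ = F.t * z) := by
  obtain ⟨h₀, hy₀, hu₀⟩ := F.exists_conj_z h10 hu
  set z' := h₀ * z * h₀⁻¹ with hz'
  have huz : Commute u z := by
    rcases hu with rfl | rfl
    · exact F.t_comm
    · exact F.t_comm.mul_left (Commute.refl z)
  have hne : u ≠ z := by
    rcases hu with rfl | rfl
    · exact F.t_ne_z h10
    · intro h; exact F.t_ne_one h10 (mul_eq_right.mp h)
  have hcz : Commute z' z := hu₀ ▸ commute_conj huz.symm
  have hcy : Commute z' (F.a * F.b) := by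
    have h := commute_conj (g := h₀) F.y_comm.symm
    rwa [hy₀.eq, mul_inv_cancel_right] at h
  have h2 : z' * z' = 1 := by
    rw [hz', show h₀ * z * h₀⁻¹ * (h₀ * z * h₀⁻¹) = h₀ * (z * z) * h₀⁻¹ by group, S.z_sq]; group
  have hne1 : z' ≠ 1 := fun h => S.z_ne_one (conj_eq_one_iff.mp h)
  have hnez : z' ≠ z := fun h => hne (by
    calc u = h₀⁻¹ * (h₀ * u * h₀⁻¹) * h₀ := by group
      _ = h₀⁻¹ * z' * h₀ := by rw [hu₀, h]
      _ = z := by rw [hz']; group)
  have kill : ∀ m : G, m ∈ F.baseGroup h10 → m * m = 1 → m = 1 := fun m hm h =>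
    eq_one_of_eq_inv (F.pow3_of_mem h10 hm) (eq_inv_iff_mul_eq_one.mpr h)
  obtain ⟨v, m, hv, hm, hvm⟩ : ∃ v m : G, (v = F.t ∨ v = F.t * z) ∧ m ∈ F.baseGroup h10 ∧
      z' = v * m := by
    rcases F.cent_yz hn h10 hcz hcy with h | h | h | h
    · exact absurd (kill _ h h2) hne1
    · have h' := kill _ h (by
        rw [← pow_two, hcz.mul_pow, pow_two, pow_two, h2, S.z_sq, one_mul])
      exact absurd ((eq_inv_of_mul_eq_one_left h').trans S.z_inv) hnez
    · refine ⟨F.t, _, Or.inl rfl, h, ?_⟩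
      rw [← mul_assoc, F.t_sq, one_mul]
    · refine ⟨F.t * z, _, Or.inr rfl, h, ?_⟩
      have hmz := F.baseGroup_comm h10 h
      rw [mul_assoc F.t z, ← hmz.eq, mul_assoc (F.t * z' ) z z, S.z_sq, mul_one, ← mul_assoc,
        F.t_sq, one_mul]
  have hv2 : v * v = 1 := by
    rcases hv with rfl | rfl
    · exact F.t_sq
    · rw [← pow_two, F.t_comm.mul_pow, pow_two, pow_two, F.t_sq, S.z_sq, one_mul]
  have hvmv : v * m * v⁻¹ = m⁻¹ := by
    have h := h2
    rw [hvm] at h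
    apply eq_inv_of_mul_eq_one_left
    rw [inv_eq_of_mul_eq_one_right hv2]
    calc v * m * v * m = v * m * (v * m) := by group
      _ = 1 := h
  have hm2 : v * m ^ 2 * v⁻¹ = (m ^ 2)⁻¹ := by rw [← conj_pow, hvmv, inv_pow]
  have hpv : m ^ 2 * v = v * (m ^ 2)⁻¹ := by
    rw [← hm2, inv_eq_of_mul_eq_one_right hv2, show v * (v * m ^ 2 * v) = (v * v) * m ^ 2 * v by group,
      hv2, one_mul]
  have hfin : m ^ 2 * z' * (m ^ 2)⁻¹ = v := by
    rw [hvm, ← mul_assoc, hpv]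
    calc v * (m ^ 2)⁻¹ * m * (m ^ 2)⁻¹ = v * (m ^ 3)⁻¹ := by group
      _ = v := by rw [F.pow3_of_mem h10 hm, inv_one, mul_one]
  have hmy : Commute (m ^ 2) (F.a * F.b) :=
    Commute.pow_left (F.baseGroup_mul_comm h10 hm (F.y_mem h10)) 2
  refine ⟨m ^ 2 * h₀, hmy.mul_left hy₀, ?_, ?_⟩
  · rw [show m ^ 2 * h₀ * u * (m ^ 2 * h₀)⁻¹ = m ^ 2 * (h₀ * u * h₀⁻¹) * (m ^ 2)⁻¹ by group, hu₀,
      ((F.baseGroup_comm h10 hm).pow_left 2).eq]
    group
  · rw [show m ^ 2 * h₀ * z * (m ^ 2 * h₀)⁻¹ = m ^ 2 * z' * (m ^ 2)⁻¹ by rw [hz']; group, hfin]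
    exact hv

theorem inP_conj {h u r : G} (hy : Commute h (F.a * F.b)) (hr : F.InP u r) :
    F.InP (h * u * h⁻¹) (h * r * h⁻¹) := by
  refine ⟨conj_cube hr.1, ?_, commute_conj hr.2.2⟩
  have := commute_conj (g := h) hr.2.1
  rwa [hy.eq, mul_inv_cancel_right] at this

theorem inP_z_iff [Finite G] (hn : n = 9) (h10 : n ≤ 10) {r : G} :
    F.InP z r ↔ r ∈ F.baseGroup h10 :=
  ⟨fun h => F.odd_yz hn h10 h.2.2 h.2.1 (odd_of_cube h.1), F.mem_baseGroup_inP h10⟩

/-- The elements of order dividing three centralising `a * b` and `u` form a group of order 27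
containing all elements of odd order centralising both. -/
theorem exists_P [Finite G] (hn : n = 9) (h10 : n ≤ 10) {u : G}
    (hu : u = F.t ∨ u = F.t * z) : ∃ P : Subgroup G, (∀ r, r ∈ P ↔ F.InP u r) ∧
      Nat.card P = 27 ∧ (∀ r, Commute r (F.a * F.b) → Commute r u → Odd (orderOf r) → F.InP u r) ∧
      (∀ r s, r ∈ P → s ∈ P → Commute r s) := by
  obtain ⟨h, hy, hh, -⟩ := F.transport hn h10 hu
  have key : ∀ r, h * r * h⁻¹ ∈ F.baseGroup h10 ↔ F.InP u r := fun r => by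
    rw [← F.inP_z_iff hn h10]
    constructor
    · intro hr
      have := F.inP_conj hy.inv_left hr
      have e : h⁻¹ * z * h⁻¹⁻¹ = u := by
        calc h⁻¹ * z * h⁻¹⁻¹ = h⁻¹ * (h * u * h⁻¹) * h⁻¹⁻¹ := by rw [hh]
          _ = u := by group
      rw [show h⁻¹ * (h * r * h⁻¹) * h⁻¹⁻¹ = r by group, e] at this
      exact this
    · intro hr
      exact hh ▸ F.inP_conj hy hr
  refine ⟨(F.baseGroup h10).comap (MulAut.conj h).toMonoidHom, fun r => key r, ?_, fun r hry hru ho => ?_,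
    fun r s hr hs => ?_⟩
  · rw [Subgroup.comap_equiv_eq_map_symm',
      Subgroup.card_map_of_injective (MulAut.conj h).symm.injective, F.card_baseGroup h10]
  · refine (key r).mp (F.odd_yz hn h10 (hh ▸ commute_conj hru) ?_ ?_)
    · have := commute_conj (g := h) hry
      rwa [hy.eq, mul_inv_cancel_right] at this
    · rwa [show h * r * h⁻¹ = MulAut.conj h r from rfl, MulEquiv.orderOf_eq]
  · have h1 : Commute (h * r * h⁻¹) (h * s * h⁻¹) := F.baseGroup_mul_comm h10 hr hs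
    have := commute_conj (g := h⁻¹) h1
    rwa [show h⁻¹ * (h * r * h⁻¹) * h⁻¹⁻¹ = r by group,
      show h⁻¹ * (h * s * h⁻¹) * h⁻¹⁻¹ = s by group] at this

theorem y_inP [Finite G] (h10 : n ≤ 10) {u : G} (hu : u = F.t ∨ u = F.t * z) :
    F.InP u (F.a * F.b) := by
  refine ⟨F.pow3_of_mem h10 (F.y_mem h10), Commute.refl _, ?_⟩
  rcases hu with rfl | rfl
  · exact (F.t_comm_y h10).symm
  · exact (F.t_comm_y h10).symm.mul_right F.y_comm

theorem threeQ_fix_nine [Finite G] (h10 : n ≤ 10) (hQ : Nat.card F.threeQ = 243) {u : G}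
    (hu : u = F.t ∨ u = F.t * z) :
    Nat.card (F.threeQ ⊓ Subgroup.centralizer {u} : Subgroup G) = 9 := by
  have hprod := F.threeQ_card_mul h10
  have ht := F.threeQ_fix_t h10
  have htz := F.threeQ_fix_tz h10
  rw [hQ] at hprod
  rcases hu with rfl | rfl <;> nlinarith

theorem u_conj_c (h10 : n ≤ 10) {u : G} (hu : u = F.t ∨ u = F.t * z) :
    u * F.c * u⁻¹ = F.c⁻¹ := by
  rcases hu with rfl | rfl
  · exact F.t_conj_c h10
  · rw [show F.t * z * F.c * (F.t * z)⁻¹ = F.t * (z * F.c * z⁻¹) * F.t⁻¹ by group, ← F.c_comm.eq,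
      mul_inv_cancel_right]
    exact F.t_conj_c h10

theorem z_inverts [Finite G] (h10 : n ≤ 10) (hQ : Nat.card F.threeQ = 243) {u w : G}
    (hu : u = F.t ∨ u = F.t * z) (hw : w ∈ F.threeQ) (hwu : Commute w u) :
    z * w * z⁻¹ = w⁻¹ := by
  haveI : Fact (Nat.Prime 3) := ⟨Nat.prime_three⟩
  set M := F.threeQ ⊓ Subgroup.centralizer ({u} : Set G) with hM
  have hMab := IsPGroup.commutative_of_card_eq_prime_sq (p := 3) (G := M)
    (by rw [hM, F.threeQ_fix_nine h10 hQ hu]; norm_num)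
  have huz : Commute u z := by
    rcases hu with rfl | rfl
    · exact F.t_comm
    · exact F.t_comm.mul_left (Commute.refl z)
  have hzw : z * w * z⁻¹ ∈ M := by
    refine ⟨F.threeQ_conj h10 F.c_comm.symm hw, mem_cent.mpr ?_⟩
    have := commute_conj (g := z) hwu
    rwa [← huz.eq, mul_inv_cancel_right] at this
  have hwM : w ∈ M := ⟨hw, mem_cent.mpr hwu⟩
  set d := z * w * z⁻¹ * w with hd
  have hdM : d ∈ M := mul_mem hzw hwM
  have hcomm : Commute (z * w * z⁻¹) w :=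
    congrArg Subtype.val (hMab ⟨_, hzw⟩ ⟨_, hwM⟩)
  have hdz : Commute d z := by
    have e : z * d * z⁻¹ = d := by
      rw [hd, show z * (z * w * z⁻¹ * w) * z⁻¹ = z * z * w * (z * z)⁻¹ * (z * w * z⁻¹) by group,
        S.z_sq, one_mul, inv_one, mul_one, hcomm.eq]
    exact (mul_inv_eq_iff_eq_mul.mp e).symm
  have := F.three_eq_one_of_inverted (F.u_conj_c h10 hu)
    (F.threeCore_cent h10 (F.threeQ_le h10 hdM.1) hdz) (mem_cent.mp hdM.2)
  exact eq_inv_of_mul_eq_one_left this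

/-- An element interchanging `t` and `t * z` and inverting `a * b`. -/
theorem exists_swap [Finite G] (hn : n = 9) (h10 : n ≤ 10) :
    ∃ k : G, Commute k z ∧ k * F.a * k⁻¹ = F.b⁻¹ ∧ k * F.b * k⁻¹ = F.a⁻¹ ∧
      k * F.c * k⁻¹ = F.c⁻¹ ∧ k * F.t * k⁻¹ = F.t * z ∧ k * (F.t * z) * k⁻¹ = F.t := by
  subst hn
  have facts : Perm.sign (swap (3 : Fin 9) 5 * swap 0 3) = 1 ∧
      (∀ k : Perm (Fin 9), k = swap (3 : Fin 9) 5 * swap 0 3 * t0 h9 *
        (swap (3 : Fin 9) 5 * swap 0 3)⁻¹ →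
      k * a0 h9 * k⁻¹ = (b0 h9)⁻¹ ∧ k * b0 h9 * k⁻¹ = (a0 h9)⁻¹ ∧ k * c0 h9 * k⁻¹ = (c0 h9)⁻¹ ∧
      k * t0 h9 * k⁻¹ = t0 h9 ∧ k * t0 h9 = swap 0 2 * swap 3 5) := by
    refine ⟨by decide, fun k hk => ?_⟩
    subst hk
    refine ⟨?_, ?_, ?_, ?_, ?_⟩
    all_goals (clear F h10 S; revert h9; decide +kernel)
  obtain ⟨hsign, hfacts⟩ := facts
  obtain ⟨g, hg, hgi⟩ := S.exists_img hsign
  set k := g * F.t * g⁻¹ with hk
  have hkz : Commute k z := (hg.mul_left F.t_comm).mul_left hg.inv_left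
  have hki : S.img k = swap (3 : Fin 9) 5 * swap 0 3 * t0 h9 *
      (swap (3 : Fin 9) 5 * swap 0 3)⁻¹ := by
    rw [hk, S.img_conj hg F.t_comm, hgi, F.img_t]
  obtain ⟨fa, fb, fc, ft, fkt⟩ := hfacts _ hki
  have hk2 : k * k = 1 := by
    rw [hk, show g * F.t * g⁻¹ * (g * F.t * g⁻¹) = g * (F.t * F.t) * g⁻¹ by group, F.t_sq]; group
  have conj_eq : ∀ r r' : G, Commute r z → Commute r' z → Odd (orderOf r) → Odd (orderOf r') →
      S.img k * S.img r * (S.img k)⁻¹ = S.img r' → k * r * k⁻¹ = r' := fun r r' hr hr' ho ho' h => by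
    refine (S.eq_of_odd ((hkz.mul_left hr).mul_left hkz.inv_left) hr'
      (by rwa [show k * r * k⁻¹ = MulAut.conj k r from rfl, MulEquiv.orderOf_eq]) ho' ?_).symm
    rw [S.img_conj hkz hr, h]
  have hkt : k * F.t * k⁻¹ = F.t * z := by
    rcases S.eq_or_eq_mul_z F.t_comm ((hkz.mul_left F.t_comm).mul_left hkz.inv_left)
      (by rw [S.img_conj hkz F.t_comm, F.img_t, ft]) with e | e
    · exfalso
      have hc : k * F.t = F.t * k := mul_inv_eq_iff_eq_mul.mp e
      have h4 : CfsgLib.Classes.AltCoverComm.Four (0 : Fin 9) 2 3 5 := by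
        constructor <;> decide
      have h := S.sq_eq_z (hkz.mul_left F.t_comm) h4 (by
        rw [S.img_mul hkz F.t_comm, F.img_t, fkt])
      rw [show k * F.t * (k * F.t) = k * (F.t * k) * F.t by group, ← hc,
        show k * (k * F.t) * F.t = (k * k) * (F.t * F.t) by group, hk2, F.t_sq, one_mul] at h
      exact S.z_ne_one h.symm
    · exact e
  refine ⟨k, hkz, ?_, ?_, ?_, hkt, ?_⟩
  · exact conj_eq _ _ F.a_comm F.b_comm.inv_left F.a_odd (by rw [orderOf_inv]; exact F.b_odd)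
      (by rw [S.img_inv F.b_comm, F.img_a, F.img_b, fa])
  · exact conj_eq _ _ F.b_comm F.a_comm.inv_left F.b_odd (by rw [orderOf_inv]; exact F.a_odd)
      (by rw [S.img_inv F.a_comm, F.img_b, F.img_a, fb])
  · exact conj_eq _ _ F.c_comm F.c_comm.inv_left F.c_odd (by rw [orderOf_inv]; exact F.c_odd)
      (by rw [S.img_inv F.c_comm, F.img_c, fc])
  · rw [show k * (F.t * z) * k⁻¹ = k * F.t * k⁻¹ * (k * z * k⁻¹) by group, hkt, hkz.eq,
      mul_inv_cancel_right, mul_assoc, S.z_sq, mul_one]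

end Frame

end CfsgLib.AltDoubleCent
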