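import Cfsg.Agent.Lib.AltDoubleCent.BigShortBase

/-!
Degree nine with a large core: elements of order three inverted by `z` and centralising `a`, `b`.
-/

set_option autoImplicit false
set_option linter.unusedSectionVars false
set_option linter.style.haveILetI false

namespace CfsgLib.AltDoubleCent

open Equiv

universe u

variable {G : Type u} [Group G] {n : ℕ} {z : G}

theorem mem_normalizer_of_sq {R : Subgroup G} {g : G} (hg : g * g = 1)
    (h : ∀ x ∈ R, g * x * g⁻¹ ∈ R) : g ∈ Subgroup.normalizer (R : Set G) := by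
  rw [Subgroup.mem_normalizer_iff]
  refine fun x => ⟨h x, fun hx => ?_⟩
  have h' := h _ hx
  rwa [show g * (g * x * g⁻¹) * g⁻¹ = g * g * x * (g * g)⁻¹ by group, hg, one_mul, inv_one,
    mul_one] at h'

namespace Frame

variable {S : Setting G n z} {h9 : 9 ≤ n} (F : Frame S h9)

theorem u_sq {u : G} (hu : u = F.t ∨ u = F.t * z) : u * u = 1 := by
  rcases hu with rfl | rfl
  · exact F.t_sq
  · rw [← pow_two, F.t_comm.mul_pow, pow_two, pow_two, F.t_sq, S.z_sq, one_mul]

theorem u_comm {u : G} (hu : u = F.t ∨ u = F.t * z) : Commute u z := by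
  rcases hu with rfl | rfl
  · exact F.t_comm
  · exact F.t_comm.mul_left (Commute.refl z)

theorem big_exists_x [Finite G] (hn : n = 9) (h10 : n ≤ 10) (hQ : Nat.card F.threeQ = 243) :
    ∃ x, F.InM F.t x ∧ x ≠ 1 ∧ Commute x F.a ∧ Commute x F.b ∧ Commute x F.c := by
  haveI : Fact (Nat.Prime 3) := ⟨Nat.prime_three⟩
  have hQc : ∀ w ∈ F.threeQ, Commute w F.c := fun w hw =>
    F.threeCore_commute (F.threeQ_le h10 hw)
  have nt : ∀ w ∈ F.threeQ, F.t * w * F.t⁻¹ ∈ F.threeQ := fun w hw =>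
    F.threeQ_conj_inv h10 (F.t_conj_c h10) hw
  have nz : ∀ w ∈ F.threeQ, z * w * z⁻¹ ∈ F.threeQ := fun w hw =>
    F.threeQ_conj h10 F.c_comm.symm hw
  set J := Cfsg.invertedBy F.threeQ z with hJ
  have hmemJ : ∀ w, w ∈ J ↔ w ∈ F.threeQ ∧ z * w * z⁻¹ = w⁻¹ := fun w => Iff.rfl
  have hJcard : Nat.card J = 81 := by
    have h := CfsgLib.FourTransitive.card_inverted_eq_mul (X := F.threeQ) F.threeQ_odd
      S.z_sq F.t_sq F.t_comm.eq.symm nt
    have e : ∀ u, u = F.t ∨ u = F.t * z →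
        Nat.card (Cfsg.invertedBy (F.threeQ ⊓ Subgroup.centralizer {u}) z) = 9 := by
      intro u hu
      have : Cfsg.invertedBy (F.threeQ ⊓ Subgroup.centralizer {u}) z =
          ((F.threeQ ⊓ Subgroup.centralizer {u} : Subgroup G) : Set G) :=
        Set.ext fun w => ⟨fun hw => hw.1, fun hw =>
          ⟨hw, F.z_inverts h10 hQ hu hw.1 (mem_cent.mp hw.2)⟩⟩
      rw [this]
      exact F.threeQ_fix_nine h10 hQ hu
    rw [← hJ, e _ (Or.inl rfl), e (z * F.t) (Or.inr F.t_comm.eq.symm)] at h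
    exact h
  have hstable : ∀ g ∈ F.baseGroup h10, ∀ w ∈ J, g * w * g⁻¹ ∈ J := by
    intro g hg w hw
    rw [hmemJ] at hw ⊢
    refine ⟨F.threeQ_conj h10 (F.baseGroup_mul_comm h10 hg (F.c_mem h10)) hw.1, ?_⟩
    have hgz := (F.baseGroup_comm h10 hg).eq
    calc z * (g * w * g⁻¹) * z⁻¹ = (z * g) * w * (z * g)⁻¹ := by group
      _ = (g * z) * w * (g * z)⁻¹ := by rw [hgz]
      _ = g * (z * w * z⁻¹) * g⁻¹ := by group
      _ = (g * w * g⁻¹)⁻¹ := by rw [hw.2]; group
  letI act : MulAction (F.baseGroup h10) J :=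
    { smul := fun g w => ⟨(g : G) * w * (g : G)⁻¹, hstable g g.2 w w.2⟩
      one_smul := fun w => Subtype.ext (by
        show (1 : G) * w * (1 : G)⁻¹ = w
        group)
      mul_smul := fun g g' w => Subtype.ext (by
        show (g : G) * g' * w * ((g : G) * g')⁻¹ = g * ((g' : G) * w * (g' : G)⁻¹) * (g : G)⁻¹
        group) }
  have h1J : (1 : G) ∈ J := (hmemJ 1).mpr ⟨one_mem _, by group⟩
  have hmod := (F.isPGroup_baseGroup h10).card_modEq_card_fixedPoints J
  obtain ⟨w, hwfix, hw1⟩ : ∃ w : J, w ∈ MulAction.fixedPoints (F.baseGroup h10) J ∧ (w : G) ≠ 1 := by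
    by_contra hne
    push Not at hne
    have huniq : MulAction.fixedPoints (F.baseGroup h10) J = {⟨1, h1J⟩} := by
      refine Set.ext fun w => ⟨fun hw => Subtype.ext (hne w hw), ?_⟩
      rintro rfl g
      exact Subtype.ext (show (g : G) * 1 * (g : G)⁻¹ = 1 by group)
    rw [huniq, hJcard, Nat.card_unique] at hmod
    exact absurd hmod (by decide)
  have hw := (hmemJ w).mp w.2
  have hcomm : ∀ g ∈ F.baseGroup h10, Commute (w : G) g := fun g hg =>
    (mul_inv_eq_iff_eq_mul.mp (congrArg Subtype.val (hwfix ⟨g, hg⟩) : g * (w : G) * g⁻¹ = w)).symm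
  set K := F.threeQ ⊓ (Subgroup.centralizer ({F.a} : Set G) ⊓ Subgroup.centralizer ({F.b} : Set G))
    with hK
  have memK : ∀ r, r ∈ K ↔ r ∈ F.threeQ ∧ Commute r F.a ∧ Commute r F.b := fun r => by
    simp only [hK, Subgroup.mem_inf, mem_cent]
  have hnK : ∀ g, (g = F.t ∨ g = z) → g ∈ Subgroup.normalizer (K : Set G) := by
    intro g hg
    rcases hg with rfl | rfl
    · refine mem_normalizer_of_sq F.t_sq fun r hr => ?_
      rw [memK] at hr ⊢
      refine ⟨nt r hr.1, ?_, ?_⟩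
      · have := commute_conj (g := F.t) hr.2.2
        rwa [F.t_conj_b h10] at this
      · have := commute_conj (g := F.t) hr.2.1
        rwa [F.t_conj_a h10] at this
    · refine mem_normalizer_of_sq S.z_sq fun r hr => ?_
      rw [memK] at hr ⊢
      refine ⟨nz r hr.1, ?_, ?_⟩
      · have := commute_conj (g := g) hr.2.1
        rwa [← F.a_comm.eq, mul_inv_cancel_right] at this
      · have := commute_conj (g := g) hr.2.2
        rwa [← F.b_comm.eq, mul_inv_cancel_right] at this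
  obtain ⟨u, hu, v, hvK, hvu, hv1⟩ : ∃ u, (u = F.t ∨ u = F.t * z) ∧ ∃ v ∈ K, Commute v u ∧ v ≠ 1 := by
    by_contra hne
    push Not at hne
    have bot : ∀ u, (u = F.t ∨ u = F.t * z) →
        K ⊓ Subgroup.centralizer ({u} : Set G) = ⊥ := fun u hu => by
      rw [eq_bot_iff]
      intro r hr
      exact Subgroup.mem_bot.mpr (hne u hu r hr.1 (mem_cent.mp hr.2))
    have h := CfsgLib.GW.card_mul_sq_eq (R := K) (Odd.of_dvd_nat F.threeQ_odd
      (Subgroup.card_dvd_of_le inf_le_left)) F.t_sq S.z_sq F.t_comm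
      (hnK _ (Or.inl rfl)) (hnK _ (Or.inr rfl))
    have hV : K ⊓ Subgroup.centralizer ({F.t, z} : Set G) = ⊥ := by
      rw [eq_bot_iff, ← bot F.t (Or.inl rfl)]
      exact inf_le_inf_left _ (Subgroup.centralizer_le (Set.singleton_subset_iff.mpr (Set.mem_insert _ _)))
    have hzc : Nat.card (K ⊓ Subgroup.centralizer ({z} : Set G) : Subgroup G) ≤ 3 := by
      have : K ⊓ Subgroup.centralizer ({z} : Set G) ≤ Subgroup.zpowers F.c := fun r hr =>
        F.threeCore_cent h10 (F.threeQ_le h10 hr.1.1) (mem_cent.mp hr.2)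
      exact (Subgroup.card_le_of_le this).trans (by rw [Nat.card_zpowers, F.c_ord])
    rw [hV, Subgroup.card_bot, one_pow, mul_one, bot _ (Or.inl rfl), bot _ (Or.inr rfl),
      Subgroup.card_bot, one_mul, mul_one] at h
    have hKle : Subgroup.zpowers F.c ≤ K := Subgroup.zpowers_le.mpr
      ((memK _).mpr ⟨F.c_mem_threeQ h10, (F.commute_ac h10).symm, (F.commute_bc h10).symm⟩)
    have hKeq : K = Subgroup.zpowers F.c :=
      (Subgroup.eq_of_le_of_card_ge hKle (by rw [Nat.card_zpowers, F.c_ord, h]; exact hzc)).symm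
    have hwc : Commute (w : G) z := by
      have : (w : G) ∈ K := (memK _).mpr
        ⟨hw.1, hcomm _ (F.a_mem h10), hcomm _ (F.b_mem h10)⟩
      rw [hKeq] at this
      obtain ⟨i, hi⟩ := this
      rw [← hi]
      exact F.c_comm.zpow_left i
    have hinv : (w : G) = (w : G)⁻¹ := by
      rw [← hw.2, ← hwc.eq, mul_inv_cancel_right]
    have h2 : (w : G) * w = 1 := eq_inv_iff_mul_eq_one.mp hinv
    obtain ⟨i, hi⟩ := F.threeQ_isPGroup ⟨w, hw.1⟩
    have hi' : (w : G) ^ 3 ^ i = 1 := congrArg Subtype.val hi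
    have := Nat.dvd_gcd (orderOf_dvd_of_pow_eq_one (show (w : G) ^ 2 = 1 by rw [pow_two, h2]))
      (orderOf_dvd_of_pow_eq_one hi')
    rw [Nat.Coprime.gcd_eq_one (Nat.Coprime.pow_right i (by norm_num))] at this
    exact hw1 (orderOf_eq_one_iff.mp (Nat.dvd_one.mp this))
  obtain ⟨hvQ, hva, hvb⟩ := (memK v).mp hvK
  obtain ⟨x, hxQ, hxu, hxa, hxb, hx1, hx3⟩ : ∃ x ∈ F.threeQ, Commute x u ∧ Commute x F.a ∧
      Commute x F.b ∧ x ≠ 1 ∧ x ^ 3 = 1 := by
    by_cases h3 : v ^ 3 = 1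
    · exact ⟨v, hvQ, hvu, hva, hvb, hv1, h3⟩
    · refine ⟨v ^ 3, pow_mem hvQ 3, hvu.pow_left 3, hva.pow_left 3, hvb.pow_left 3, h3, ?_⟩
      have h9' : v ^ 9 = 1 := by
        have hmem : v ∈ F.threeQ ⊓ Subgroup.centralizer ({u} : Set G) := ⟨hvQ, mem_cent.mpr hvu⟩
        have := pow_card_eq_one' (x := (⟨v, hmem⟩ : (F.threeQ ⊓ Subgroup.centralizer ({u} : Set G) : Subgroup G)))
        rw [F.threeQ_fix_nine h10 hQ hu] at this
        exact congrArg Subtype.val this
      rw [← pow_mul]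
      exact h9'
  have hxz := F.z_inverts h10 hQ hu hxQ hxu
  have hxy : Commute x (F.a * F.b) := hxa.mul_right hxb
  rcases hu with rfl | rfl
  · exact ⟨x, ⟨⟨hx3, hxy, hxu⟩, hxz⟩, hx1, hxa, hxb, hQc x hxQ⟩
  · obtain ⟨k, hkz, ka, kb, kc, -, ktz⟩ := F.exists_swap hn h10
    have h1 := commute_conj (g := k) hxa
    rw [ka] at h1
    have h2 := commute_conj (g := k) hxb
    rw [kb] at h2
    have h3 := commute_conj (g := k) (hQc x hxQ)
    rw [kc] at h3
    have h4 := commute_conj (g := k) hxu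
    rw [ktz] at h4
    refine ⟨k * x * k⁻¹, ⟨⟨conj_cube hx3, (Commute.inv_right_iff.mp h2).mul_right
      (Commute.inv_right_iff.mp h1), h4⟩, ?_⟩, fun e => hx1 (conj_eq_one_iff.mp e),
      Commute.inv_right_iff.mp h2, Commute.inv_right_iff.mp h1, Commute.inv_right_iff.mp h3⟩
    calc z * (k * x * k⁻¹) * z⁻¹ = (z * k) * x * (z * k)⁻¹ := by group
      _ = k * (z * x * z⁻¹) * k⁻¹ := by rw [← hkz.eq]; group
      _ = (k * x * k⁻¹)⁻¹ := by rw [hxz]; group

/-- `x` and its image under the swap commute. -/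
theorem big_x_comm [Finite G] (hn : n = 9) (h10 : n ≤ 10) (hQ : Nat.card F.threeQ = 243) {x k : G}
    (hx : F.InM F.t x) (hx1 : x ≠ 1) (hxa : Commute x F.a) (hxb : Commute x F.b)
    (hxc : Commute x F.c) (ka : k * F.a * k⁻¹ = F.b⁻¹) (kb : k * F.b * k⁻¹ = F.a⁻¹)
    (kc : k * F.c * k⁻¹ = F.c⁻¹) (kt : k * F.t * k⁻¹ = F.t * z)
    (ktz : k * (F.t * z) * k⁻¹ = F.t) : Commute x (k * x * k⁻¹) := by
  haveI : Fact (Nat.Prime 3) := ⟨Nat.prime_three⟩
  set y := F.a * F.b with hy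
  set x' := k * x * k⁻¹ with hx'
  have hxQ : x ∈ F.threeQ := F.threeQ_inverted_mem h10 hxc hx.2 hx.1.1
  have hx'Q : x' ∈ F.threeQ := F.threeQ_conj_inv h10 kc hxQ
  have hyk : k * y * k⁻¹ = y⁻¹ := by
    rw [hy, ← conj_mul, ka, kb, mul_inv_rev]
  have hyx' : Commute y x' := by
    have h := commute_conj (g := k) hx.1.2.1
    rw [hyk] at h
    exact (Commute.inv_right_iff.mp h).symm
  have hyc : Commute y F.c := (F.commute_ac h10).mul_left (F.commute_bc h10)
  have hyt : Commute y F.t := (F.t_comm_y h10).symm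
  set M := F.threeQ ⊓ Subgroup.centralizer ({F.t} : Set G) with hM
  have hMcard : Nat.card M = 9 := F.threeQ_fix_nine h10 hQ (Or.inl rfl)
  have hMab := IsPGroup.commutative_of_card_eq_prime_sq (p := 3) (G := M) (by rw [hMcard]; norm_num)
  have hconjM : ∀ r ∈ M, y * r * y⁻¹ ∈ M := fun r hr => by
    refine ⟨F.threeQ_conj h10 hyc hr.1, mem_cent.mpr ?_⟩
    have h := commute_conj (g := y) (mem_cent.mp hr.2)
    rwa [hyt.eq, mul_inv_cancel_right] at h
  let f : M →* M :=
    { toFun := fun r => ⟨y * r * y⁻¹ * (r : G)⁻¹, mul_mem (hconjM r r.2) (inv_mem r.2)⟩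
      map_one' := Subtype.ext (by show y * (1 : G) * y⁻¹ * (1 : G)⁻¹ = 1; group)
      map_mul' := fun r s => Subtype.ext (by
        show y * ((r : G) * s) * y⁻¹ * ((r : G) * s)⁻¹ =
          y * r * y⁻¹ * (r : G)⁻¹ * (y * s * y⁻¹ * (s : G)⁻¹)
        have hc : Commute (y * (s : G) * y⁻¹ * (s : G)⁻¹) (r : G)⁻¹ :=
          congrArg Subtype.val (hMab ⟨_, mul_mem (hconjM s s.2) (inv_mem s.2)⟩ ⟨_, inv_mem r.2⟩)
        rw [show y * r * y⁻¹ * (r : G)⁻¹ * (y * s * y⁻¹ * (s : G)⁻¹) =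
          y * r * y⁻¹ * ((r : G)⁻¹ * (y * s * y⁻¹ * (s : G)⁻¹)) by group, ← hc.eq]
        group) }
  have hf : ∀ r : M, ((f r : M) : G) = y * r * y⁻¹ * (r : G)⁻¹ := fun r => rfl
  have hker : ∀ r : M, r ∈ f.ker ↔ Commute y (r : G) := fun r => by
    rw [MonoidHom.mem_ker, ← Subtype.coe_inj, hf, Subgroup.coe_one, mul_inv_eq_one,
      mul_inv_eq_iff_eq_mul]
    exact Iff.rfl
  have hxM : x ∈ M := ⟨hxQ, mem_cent.mpr hx.1.2.2⟩
  have hxord : orderOf (⟨x, hxM⟩ : M) = 3 := by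
    rw [Subgroup.orderOf_mk]
    exact orderOf_eq_prime hx.1.1 hx1
  have hxker : (⟨x, hxM⟩ : M) ∈ f.ker := (hker _).mpr hx.1.2.1.symm
  have hne : f.ker ≠ ⊤ := by
    intro htop
    refine F.big_y_not_cent hn hQ (fun r hr hrz => F.threeCore_cent h10 (F.threeQ_le h10 hr) hrz)
      (fun g r hg hr => F.threeQ_conj h10 hg hr) fun r hr => ?_
    set L := F.threeQ ⊓ Subgroup.centralizer ({y} : Set G) with hL
    have nL : ∀ g, g * g = 1 → Commute g y → (∀ w ∈ F.threeQ, g * w * g⁻¹ ∈ F.threeQ) →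
        g ∈ Subgroup.normalizer (L : Set G) := fun g hg2 hgy hgQ =>
      mem_normalizer_of_sq hg2 fun w hw => ⟨hgQ w hw.1, mem_cent.mpr (by
        have h := commute_conj (g := g) (mem_cent.mp hw.2)
        rwa [hgy.eq, mul_inv_cancel_right] at h)⟩
    have h1 : M ≤ L := fun w hw => ⟨hw.1, mem_cent.mpr
      ((hker ⟨w, hw⟩).mp (htop ▸ Subgroup.mem_top _)).symm⟩
    have h2 : F.threeQ ⊓ Subgroup.centralizer ({F.t * z} : Set G) ≤ L := fun w hw => by
      have hkw : k * w * k⁻¹ ∈ M := ⟨F.threeQ_conj_inv h10 kc hw.1, mem_cent.mpr (by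
        have h := commute_conj (g := k) (mem_cent.mp hw.2)
        rwa [ktz] at h)⟩
      have h := (hker ⟨_, hkw⟩).mp (htop ▸ Subgroup.mem_top _)
      have h' := commute_conj (g := k⁻¹) h.inv_left
      rw [show k⁻¹ * (k * w * k⁻¹) * k⁻¹⁻¹ = w by group, ← hyk,
        show k⁻¹ * (k * y * k⁻¹) * k⁻¹⁻¹ = y by group] at h'
      exact ⟨hw.1, mem_cent.mpr h'.symm⟩
    have hodd : Odd (Nat.card L) :=
      Odd.of_dvd_nat F.threeQ_odd (Subgroup.card_dvd_of_le inf_le_left)
    have hform := CfsgLib.GW.card_mul_sq_eq (R := L) hodd F.t_sq S.z_sq F.t_comm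
      (nL _ F.t_sq hyt.symm fun w hw => F.threeQ_conj_inv h10 (F.t_conj_c h10) hw)
      (nL _ S.z_sq F.y_comm.symm fun w hw => F.threeQ_conj h10 F.c_comm.symm hw)
    have hzero : L ⊓ Subgroup.centralizer ({F.t, z} : Set G) = ⊥ := by
      rw [eq_bot_iff]
      intro w hw
      have h3 := Subgroup.mem_centralizer_iff.mp hw.2 F.t (Set.mem_insert _ _)
      have h4 := Subgroup.mem_centralizer_iff.mp hw.2 z (Set.mem_insert_of_mem _ rfl)
      exact Subgroup.mem_bot.mpr (F.three_eq_one_of_inverted (F.t_conj_c h10)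
        (F.threeCore_cent h10 (F.threeQ_le h10 hw.1.1) (show Commute w z from h4.symm))
        (show Commute w F.t from h3.symm))
    have e1 : L ⊓ Subgroup.centralizer ({F.t} : Set G) = M :=
      le_antisymm (fun w hw => ⟨hw.1.1, hw.2⟩) fun w hw => ⟨h1 hw, hw.2⟩
    have e2 : L ⊓ Subgroup.centralizer ({F.t * z} : Set G) =
        F.threeQ ⊓ Subgroup.centralizer ({F.t * z} : Set G) :=
      le_antisymm (fun w hw => ⟨hw.1.1, hw.2⟩) fun w hw => ⟨h2 hw, hw.2⟩
    have e3 : L ⊓ Subgroup.centralizer ({z} : Set G) = Subgroup.zpowers F.c :=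
      le_antisymm (fun w hw => F.threeCore_cent h10 (F.threeQ_le h10 hw.1.1) (mem_cent.mp hw.2))
        (Subgroup.zpowers_le.mpr ⟨⟨F.c_mem_threeQ h10, mem_cent.mpr hyc.symm⟩,
          mem_cent.mpr F.c_comm⟩)
    rw [hzero, Subgroup.card_bot, one_pow, mul_one, e1, e2, e3, hMcard,
      F.threeQ_fix_nine h10 hQ (Or.inr rfl), Nat.card_zpowers, F.c_ord] at hform
    have hLQ : L = F.threeQ := Subgroup.eq_of_le_of_card_ge inf_le_left (by rw [hQ, hform])
    exact mem_cent.mp (hLQ ▸ hr : r ∈ L).2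
  have hkercard : Nat.card f.ker = 3 := by
    have hd : Nat.card f.ker ∣ 3 ^ 2 := by
      have := Subgroup.card_subgroup_dvd_card f.ker
      rwa [hMcard] at this
    have h3 : 3 ∣ Nat.card f.ker := by
      have := orderOf_dvd_natCard (⟨⟨x, hxM⟩, hxker⟩ : f.ker)
      rwa [Subgroup.orderOf_mk, hxord] at this
    obtain ⟨i, hi, he⟩ := (Nat.dvd_prime_pow Nat.prime_three).mp hd
    interval_cases i
    · rw [he] at h3; omega
    · simpa using he
    · exact absurd (Subgroup.eq_top_of_card_eq _ (by rw [he, hMcard]; norm_num)) hne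
  have hrange : Nat.card f.range = 3 := by
    have h := f.ker.index_mul_card
    rw [Subgroup.index_ker, hkercard, hMcard] at h
    omega
  obtain ⟨w, hw⟩ : ∃ w : M, f w ≠ 1 := by
    by_contra hno
    push Not at hno
    exact hne (eq_top_iff.mpr fun r _ => hno r)
  set v := f w with hv
  have hvker : v ∈ f.ker := by
    -- `f` commutes with conjugation by `y`, so conjugation by `y` acts on the range of order three
    have hrgen : ∀ r ∈ f.range, r ∈ Subgroup.zpowers v := by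
      intro r hr
      have hle : Subgroup.zpowers v ≤ f.range := Subgroup.zpowers_le.mpr ⟨w, rfl⟩
      have hvord : orderOf v = 3 := by
        have hd := orderOf_dvd_natCard (⟨v, w, rfl⟩ : f.range)
        rw [← Subgroup.orderOf_coe, hrange] at hd
        exact ((Nat.dvd_prime Nat.prime_three).mp hd).resolve_left
          (fun h => hw (orderOf_eq_one_iff.mp h))
      rwa [Subgroup.eq_of_le_of_card_ge hle (by rw [Nat.card_zpowers, hvord, hrange])]
    have hmem : (⟨y * (v : G) * y⁻¹, hconjM v v.2⟩ : M) ∈ f.range := by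
      refine ⟨⟨y * (w : G) * y⁻¹, hconjM w w.2⟩, Subtype.ext ?_⟩
      rw [hf]
      show y * (y * (w : G) * y⁻¹) * y⁻¹ * (y * (w : G) * y⁻¹)⁻¹ = y * (v : G) * y⁻¹
      rw [hv, hf]
      group
    obtain ⟨j, hj⟩ := Subgroup.mem_zpowers_iff.mp (hrgen _ hmem)
    have hj' : (v : G) ^ j = y * (v : G) * y⁻¹ := by
      have := congrArg Subtype.val hj
      simpa using this
    have hv3 : (v : G) ^ (3 : ℕ) = 1 := by
      have h := pow_card_eq_one' (x := (⟨v, w, rfl⟩ : f.range))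
      rw [hrange] at h
      exact congrArg (fun r : f.range => ((r : M) : G)) h
    have hjm : (v : G) ^ j = (v : G) ^ (j % 3).toNat := by
      rw [zpow_eq_zpow_emod' j hv3, ← zpow_natCast, Int.toNat_of_nonneg (Int.emod_nonneg j (by norm_num))]
      rfl
    rw [hker]
    have hcases : (j % 3).toNat = 0 ∨ (j % 3).toNat = 1 ∨ (j % 3).toNat = 2 := by omega
    rw [hjm] at hj'
    rcases hcases with h | h | h <;> rw [h] at hj'
    · rw [pow_zero, eq_comm, conj_eq_one_iff] at hj'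
      exact absurd (Subtype.ext hj') hw
    · rw [pow_one] at hj'
      exact mul_inv_eq_iff_eq_mul.mp hj'.symm
    · exfalso
      have hy3 : y ^ 3 = 1 := F.pow3_of_mem h10 (F.y_mem h10)
      have e : ∀ m : ℕ, y * (v : G) ^ m * y⁻¹ = (v : G) ^ (2 * m) := fun m => by
        rw [← conj_pow, ← hj', ← pow_mul]
      have h8 : (v : G) ^ 8 = y ^ 3 * (v : G) * (y ^ 3)⁻¹ := by
        rw [show y ^ 3 * (v : G) * (y ^ 3)⁻¹ = y * (y * (y * (v : G) * y⁻¹) * y⁻¹) * y⁻¹ by
            rw [pow_succ, pow_two]; group,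
          ← hj', e 2, e (2 * 2)]
      rw [hy3, one_mul, inv_one, mul_one, pow_eq_pow_mod 8 hv3] at h8
      exact hw (Subtype.ext (by
        rw [Subgroup.coe_one]
        calc (v : G) = (v : G) ^ 2 * (v : G)⁻¹ := by group
          _ = 1 := by rw [show 8 % 3 = 2 from rfl] at h8; rw [h8, mul_inv_cancel]))
  have hvx : x ∈ Subgroup.zpowers (v : G) := by
    have hvord : orderOf v = 3 := by
      have hd := orderOf_dvd_natCard (⟨v, hvker⟩ : f.ker)
      rw [Subgroup.orderOf_mk, hkercard] at hd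
      exact ((Nat.dvd_prime Nat.prime_three).mp hd).resolve_left
        (fun h => hw (orderOf_eq_one_iff.mp h))
    have hle : Subgroup.zpowers v ≤ f.ker := Subgroup.zpowers_le.mpr hvker
    have heq := Subgroup.eq_of_le_of_card_ge hle (by rw [Nat.card_zpowers, hvord, hkercard])
    have hx2 : (⟨x, hxM⟩ : M) ∈ Subgroup.zpowers v := heq ▸ hxker
    obtain ⟨j, hj⟩ := Subgroup.mem_zpowers_iff.mp hx2
    exact Subgroup.mem_zpowers_iff.mpr ⟨j, by simpa using congrArg Subtype.val hj⟩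
  -- the commutator pairing into `⟨c⟩` is invariant under `y`
  have hvx' : Commute (v : G) x' := by
    obtain ⟨i, hi⟩ := F.threeCore_comm_mem h10 (F.threeQ_le h10 w.2.1) (F.threeQ_le h10 hx'Q)
    have hi' : F.c ^ i = (w : G) * x' * (w : G)⁻¹ * x'⁻¹ := hi
    have hfix : y * F.c ^ i * y⁻¹ = F.c ^ i := by
      rw [(hyc.zpow_right i).eq, mul_inv_cancel_right]
    have key : y * (w : G) * y⁻¹ * x' * (y * (w : G) * y⁻¹)⁻¹ =
        (w : G) * x' * (w : G)⁻¹ := by
      rw [hi'] at hfix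
      calc y * (w : G) * y⁻¹ * x' * (y * (w : G) * y⁻¹)⁻¹
          = y * ((w : G) * (y⁻¹ * x' * y) * (w : G)⁻¹) * y⁻¹ := by group
        _ = y * ((w : G) * x' * (w : G)⁻¹) * y⁻¹ := by
            rw [mul_assoc y⁻¹, ← hyx'.eq, inv_mul_cancel_left]
        _ = y * ((w : G) * x' * (w : G)⁻¹ * x'⁻¹) * y⁻¹ * (y * x' * y⁻¹) := by group
        _ = (w : G) * x' * (w : G)⁻¹ * x'⁻¹ * x' := by rw [hfix, hyx'.eq, mul_inv_cancel_right]
        _ = _ := by group
    have hv' : y * (w : G) * y⁻¹ = (v : G) * w := by rw [hv, hf]; group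
    rw [hv'] at key
    have hx'wc : (w : G) * x' * (w : G)⁻¹ = F.c ^ i * x' := by rw [hi']; group
    have hvc : Commute (v : G) (F.c ^ i) :=
      (F.threeCore_commute (F.threeQ_le h10 v.2.1)).zpow_right i
    have h5 : (v : G) * (F.c ^ i * x') * (v : G)⁻¹ = F.c ^ i * x' := by
      rw [← hx'wc]
      calc (v : G) * ((w : G) * x' * (w : G)⁻¹) * (v : G)⁻¹
          = (v : G) * w * x' * ((v : G) * w)⁻¹ := by group
        _ = _ := key
    rw [← mul_assoc, hvc.eq, mul_assoc (F.c ^ i), mul_assoc (F.c ^ i)] at h5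
    exact mul_inv_eq_iff_eq_mul.mp (mul_left_cancel h5)
  obtain ⟨j, hj⟩ := Subgroup.mem_zpowers_iff.mp hvx
  rw [← hj]
  exact hvx'.zpow_left j

end Frame

end CfsgLib.AltDoubleCent
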