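import Mathlib
import Cfsg.Agent.S3347
import Cfsg.Agent.Lib.Cores.PCore
import Cfsg.Agent.Lib.PSolvable.Series
import Cfsg.Agent.Lib.Transfer.Residual

/-!
A fusion consequence of the inertial-index-two theorem: an involution inverting an abelian Sylow
`3`-subgroup is not conjugate to an involution centralising it.
-/

set_option autoImplicit false

namespace CfsgLib.AltDoubleCent

open Cfsg

universe u

theorem inverted_sylow_false {X : Type u} [Group X] [Finite X] [Fact (Nat.Prime 3)] (P : Sylow 3 X)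
    (hab : IsMulCommutative (P : Subgroup X)) (hnc : ¬ IsCyclic (P : Subgroup X))
    (hidx : ((Subgroup.centralizer ((P : Subgroup X) : Set X)).subgroupOf
      (Subgroup.normalizer ((P : Subgroup X) : Set X))).index = 2)
    {z t g : X} (hzP : ∀ a ∈ (P : Subgroup X), z * a = a * z) (hg : g * z * g⁻¹ = t)
    (ht2 : t * t = 1) (hinv : ∀ a ∈ (P : Subgroup X), t * a * t⁻¹ = a⁻¹) : False := by
  classical
  rcases Cfsg.Agent.S3347.result 3 (by norm_num) P hab hnc hidx with hres | hlen
  · haveI := CfsgLib.Transfer.pResidual_normal (p := 3) (G := X)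
    set R := X ⧸ pResidual 3 X
    let q : X →* R := QuotientGroup.mk' _
    have hR : IsPGroup 3 R := CfsgLib.Transfer.isPGroup_quotient_pResidual
    have ht : q t = 1 := by
      obtain ⟨k, hk⟩ := hR (q t)
      have h2 : q t ^ 2 = 1 := by rw [pow_two, ← map_mul, ht2, map_one]
      have := Nat.dvd_gcd (orderOf_dvd_of_pow_eq_one hk) (orderOf_dvd_of_pow_eq_one h2)
      rw [Nat.Coprime.gcd_eq_one (Nat.Coprime.pow_left k (by norm_num))] at this
      exact orderOf_eq_one_iff.mp (Nat.dvd_one.mp this)
    have hP : ∀ a ∈ (P : Subgroup X), q a = 1 := by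
      intro a ha
      have h := congrArg q (hinv a ha)
      rw [map_mul, map_mul, ht, map_inv, map_inv, ht, one_mul, inv_one, mul_one] at h
      obtain ⟨k, hk⟩ := hR (q a)
      have h2 : q a ^ 2 = 1 := by rw [pow_two]; exact eq_inv_iff_mul_eq_one.mp h
      have := Nat.dvd_gcd (orderOf_dvd_of_pow_eq_one hk) (orderOf_dvd_of_pow_eq_one h2)
      rw [Nat.Coprime.gcd_eq_one (Nat.Coprime.pow_left k (by norm_num))] at this
      exact orderOf_eq_one_iff.mp (Nat.dvd_one.mp this)
    apply hres
    have hqs : Function.Surjective q := QuotientGroup.mk'_surjective _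
    have hmap := (P.mapSurjective hqs).is_maximal' (hR.of_equiv Subgroup.topEquiv.symm) le_top
    rw [eq_top_iff]
    intro x _
    have hx : q x ∈ (P : Subgroup X).map q := by
      rw [← Sylow.coe_mapSurjective hqs, ← hmap]
      exact Subgroup.mem_top _
    obtain ⟨a, ha, hax⟩ := Subgroup.mem_map.mp hx
    rw [hP a ha] at hax
    exact (QuotientGroup.eq_one_iff x).mp hax.symm
  · set U1 := (upperPSeries 3 X 1).1 with hU1
    set U2 := (upperPSeries 3 X 2).1 with hU2
    have hU1n : U1.Normal := (upperPSeries 3 X 1).2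
    have hU2n : U2.Normal := (upperPSeries 3 X 2).2
    have hlen' : (pPrimeCore 3 (X ⧸ U2)).comap (QuotientGroup.mk' U2) = ⊤ := by
      have := CfsgLib.PSolvable.upperPSeries_succ_of_even (p := 3) (G := X) (n := 2) (by decide)
      rw [← hlen]
      exact this.symm
    have htop : pPrimeCore 3 (X ⧸ U2) = ⊤ := by
      apply Subgroup.comap_injective (QuotientGroup.mk'_surjective U2)
      rw [hlen', Subgroup.comap_top]
    have hcop2 : (Nat.card (X ⧸ U2)).Coprime 3 := by
      have := CfsgLib.Cores.card_pPrimeCore_coprime (G := X ⧸ U2) 3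
      rwa [htop, Subgroup.card_top] at this
    have hcop1 : (Nat.card U1).Coprime 3 := by
      rw [hU1, CfsgLib.PSolvable.upperPSeries_one]
      exact CfsgLib.Cores.card_pPrimeCore_coprime 3
    have hPU2 : (P : Subgroup X) ≤ U2 := by
      intro a ha
      obtain ⟨k, hk⟩ := P.2 ⟨a, ha⟩
      have hk' : a ^ 3 ^ k = 1 := congrArg Subtype.val hk
      rw [← QuotientGroup.eq_one_iff]
      have h1 : (QuotientGroup.mk a : X ⧸ U2) ^ 3 ^ k = 1 := by rw [← QuotientGroup.mk_pow, hk']; rfl
      have h2 : (QuotientGroup.mk a : X ⧸ U2) ^ Nat.card (X ⧸ U2) = 1 := pow_card_eq_one'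
      have := Nat.dvd_gcd (orderOf_dvd_of_pow_eq_one h2) (orderOf_dvd_of_pow_eq_one h1)
      rw [Nat.Coprime.gcd_eq_one (hcop2.pow_right k)] at this
      exact orderOf_eq_one_iff.mp (Nat.dvd_one.mp this)
    let q : X →* X ⧸ U1 := QuotientGroup.mk' U1
    have hqs : Function.Surjective q := QuotientGroup.mk'_surjective _
    have hU2eq : U2 = (pCore 3 (X ⧸ U1)).comap q :=
      CfsgLib.PSolvable.upperPSeries_succ_of_odd (p := 3) (G := X) (n := 1) (by decide)
    have hle : (P : Subgroup X).map q ≤ pCore 3 (X ⧸ U1) := by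
      rw [Subgroup.map_le_iff_le_comap, ← hU2eq]
      exact hPU2
    have heq := (P.mapSurjective hqs).is_maximal' (CfsgLib.Cores.isPGroup_pCore 3 (X ⧸ U1))
      (by rw [Sylow.coe_mapSurjective]; exact hle)
    rw [Sylow.coe_mapSurjective] at heq
    have hall : ∀ a ∈ (P : Subgroup X), a = 1 := by
      intro a ha
      have hmem : q (g⁻¹ * a * g) ∈ pCore 3 (X ⧸ U1) := by
        rw [map_mul, map_mul, map_inv]
        exact (inferInstance : (pCore 3 (X ⧸ U1)).Normal).conj_mem' _ (hle ⟨a, ha, rfl⟩) (q g)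
      rw [heq] at hmem
      obtain ⟨a', ha', haq⟩ := Subgroup.mem_map.mp hmem
      have hzc : q z * q (g⁻¹ * a * g) = q (g⁻¹ * a * g) * q z := by
        rw [← haq, ← map_mul, hzP a' ha', map_mul]
      have htc : q t * q a = q a * q t := by
        have h := congrArg (fun x => q g * x * q g⁻¹) hzc
        simp only [← map_mul] at h
        rw [show g * (z * (g⁻¹ * a * g)) * g⁻¹ = g * z * g⁻¹ * a by group,
          show g * (g⁻¹ * a * g * z) * g⁻¹ = a * (g * z * g⁻¹) by group, hg, map_mul, map_mul] at h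
        exact h
      have hsq : q (a * a) = 1 := by
        have h := congrArg q (hinv a ha)
        rw [map_mul, map_mul, htc, map_inv, mul_inv_cancel_right, map_inv] at h
        rw [map_mul]
        exact eq_inv_iff_mul_eq_one.mp h
      have hm : a * a ∈ U1 := (QuotientGroup.eq_one_iff _).mp hsq
      obtain ⟨k, hk⟩ := P.2 ⟨a, ha⟩
      have hk' : a ^ 3 ^ k = 1 := congrArg Subtype.val hk
      have h1 : (a * a) ^ 3 ^ k = 1 := by rw [← pow_two, ← pow_mul, mul_comm, pow_mul, hk', one_pow]
      have h2 : (a * a) ^ Nat.card U1 = 1 :=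
        congrArg Subtype.val (pow_card_eq_one' (x := (⟨a * a, hm⟩ : U1)))
      have := Nat.dvd_gcd (orderOf_dvd_of_pow_eq_one h2) (orderOf_dvd_of_pow_eq_one h1)
      rw [Nat.Coprime.gcd_eq_one (hcop1.pow_right k)] at this
      have h3 : a ^ 2 = 1 := by rw [pow_two]; exact orderOf_eq_one_iff.mp (Nat.dvd_one.mp this)
      have := Nat.dvd_gcd (orderOf_dvd_of_pow_eq_one h3) (orderOf_dvd_of_pow_eq_one hk')
      rw [Nat.Coprime.gcd_eq_one (Nat.Coprime.pow_right k (by norm_num))] at this
      exact orderOf_eq_one_iff.mp (Nat.dvd_one.mp this)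
    apply hnc
    haveI : Subsingleton (P : Subgroup X) :=
      ⟨fun x y => Subtype.ext ((hall x x.2).trans (hall y y.2).symm)⟩
    infer_instance

end CfsgLib.AltDoubleCent
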