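import Cfsg.Agent.Lib.AltDoubleCent.SmallAux
import Cfsg.Agent.Lib.AltDoubleCent.BasePerm

/-!
Degrees nine and ten are impossible when the centraliser of a three-cycle has no large core.
-/

set_option autoImplicit false
set_option linter.unusedSectionVars false
set_option linter.style.haveILetI false
set_option maxHeartbeats 800000

namespace CfsgLib.AltDoubleCent

open Equiv

universe u

variable {G : Type u} [Group G] {n : ℕ} {z : G}

namespace Frame

variable {S : Setting G n z} {h9 : 9 ≤ n} (F : Frame S h9)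

/-- An element of the centraliser of `z` centralising `a`, `b` and `c` lies in `A⟨z⟩`. -/
theorem cent_baseGroup (h10 : n ≤ 10) {x : G} (hx : Commute x z) (ha : Commute x F.a)
    (hb : Commute x F.b) (hc : Commute x F.c) :
    x ∈ F.baseGroup h10 ∨ x * z ∈ F.baseGroup h10 := by
  obtain ⟨i, j, k, hijk⟩ := E_centralizer (s := S.img x) h9 h10
    (by rw [← F.img_a]; exact S.commute_img hx F.a_comm ha)
    (by rw [← F.img_b]; exact S.commute_img hx F.b_comm hb)
    (by rw [← F.img_c]; exact S.commute_img hx F.c_comm hc)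
  have hw : F.a ^ i * F.b ^ j * F.c ^ k ∈ F.baseGroup h10 := ⟨i, j, k, rfl⟩
  rcases S.eq_or_eq_mul_z (F.baseGroup_comm h10 hw) hx (by rw [F.img_word, hijk]) with e | e
  · exact Or.inl (e ▸ hw)
  · refine Or.inr ?_
    rw [e, mul_assoc, S.z_sq, mul_one]
    exact hw

theorem mem_cent_baseGroup (h10 : n ≤ 10) {x : G} :
    x ∈ Subgroup.centralizer (F.baseGroup h10 : Set G) ↔
      Commute x F.a ∧ Commute x F.b ∧ Commute x F.c := by
  rw [Subgroup.mem_centralizer_iff]
  constructor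
  · intro h
    exact ⟨(h _ (F.a_mem h10)).symm, (h _ (F.b_mem h10)).symm, (h _ (F.c_mem h10)).symm⟩
  · rintro ⟨ha, hb, hc⟩ _ ⟨i, j, k, rfl⟩
    exact (((ha.pow_right i).mul_right (hb.pow_right j)).mul_right (hc.pow_right k)).eq.symm

theorem pow3_of_mem (h10 : n ≤ 10) {x : G} (hx : x ∈ F.baseGroup h10) : x ^ 3 = 1 := by
  obtain ⟨i, j, k, rfl⟩ := hx
  have hab := (F.commute_ab h10).pow_pow i j
  have habc : Commute (F.a ^ i * F.b ^ j) (F.c ^ k) :=
    ((F.commute_ac h10).pow_pow i k).mul_left ((F.commute_bc h10).pow_pow j k)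
  rw [habc.mul_pow, hab.mul_pow, pow_right_comm F.a, pow_right_comm F.b, pow_right_comm F.c,
    F.a_pow3, F.b_pow3, F.c_pow3]
  simp

theorem eq_one_or_z [Finite G] (h10 : n ≤ 10) {x : G}
    (hx : x ∈ Subgroup.centralizer (F.baseGroup h10 : Set G)) (hxz : Commute x z)
    (h2 : ∃ k, x ^ 2 ^ k = 1) : x = 1 ∨ x = z := by
  obtain ⟨ha, hb, hc⟩ := (F.mem_cent_baseGroup h10).mp hx
  obtain ⟨k, hk⟩ := h2
  have key : ∀ y : G, y ∈ F.baseGroup h10 → y ^ 2 ^ (k + 1) = 1 → y = 1 := by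
    intro y hy h
    have := Nat.dvd_gcd (orderOf_dvd_of_pow_eq_one (F.pow3_of_mem h10 hy))
      (orderOf_dvd_of_pow_eq_one h)
    rw [Nat.Coprime.gcd_eq_one (Nat.Coprime.pow_right (k + 1) (by norm_num))] at this
    exact orderOf_eq_one_iff.mp (Nat.dvd_one.mp this)
  rcases F.cent_baseGroup h10 hxz ha hb hc with h | h
  · exact Or.inl (key x h (by rw [pow_succ, pow_mul, hk, one_pow]))
  · right
    have h' := key _ h (by
      rw [hxz.mul_pow, pow_succ, pow_mul, hk, one_pow, one_mul, mul_comm, pow_mul, pow_two,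
        S.z_sq, one_pow])
    rw [eq_inv_of_mul_eq_one_left h', S.z_inv]

theorem z_mem_cent (h10 : n ≤ 10) : z ∈ Subgroup.centralizer (F.baseGroup h10 : Set G) :=
  (F.mem_cent_baseGroup h10).mpr ⟨F.a_comm.symm, F.b_comm.symm, F.c_comm.symm⟩

theorem exists_conj_in_cent [Finite G] (h10 : n ≤ 10) {w : G}
    (hw : w ∈ Subgroup.centralizer (F.baseGroup h10 : Set G)) (hw2 : w * w = 1) (hw1 : w ≠ 1) :
    ∃ m ∈ Subgroup.centralizer (F.baseGroup h10 : Set G), m * z * m⁻¹ = w := by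
  haveI : Fact (Nat.Prime 2) := ⟨Nat.prime_two⟩
  set C := Subgroup.centralizer (F.baseGroup h10 : Set G) with hC
  let z' : C := ⟨z, F.z_mem_cent h10⟩
  let w' : C := ⟨w, hw⟩
  have hord : ∀ v : C, v * v = 1 → IsPGroup 2 (Subgroup.zpowers v) := fun v hv => by
    have hdvd : orderOf v ∣ 2 ^ 1 := orderOf_dvd_of_pow_eq_one (by rw [pow_one, pow_two, hv])
    obtain ⟨i, -, hi⟩ := (Nat.dvd_prime_pow Nat.prime_two).mp hdvd
    exact IsPGroup.of_card (n := i) (by rw [Nat.card_zpowers, hi])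
  obtain ⟨P, hP⟩ := (hord z' (Subtype.ext S.z_sq)).exists_le_sylow
  obtain ⟨Q, hQ⟩ := (hord w' (Subtype.ext hw2)).exists_le_sylow
  have hzP : z' ∈ (P : Subgroup C) := hP (Subgroup.mem_zpowers _)
  have hcen : ∀ x ∈ (P : Subgroup C), Commute (x : G) z := by
    haveI : Nontrivial (P : Subgroup C) := ⟨⟨⟨z', hzP⟩, 1, fun h => S.z_ne_one
      (congrArg (fun v : (P : Subgroup C) => ((v : C) : G)) h)⟩⟩
    haveI := P.2.center_nontrivial
    obtain ⟨j, hj⟩ := IsPGroup.iff_card.mp (P.2.to_subgroup (Subgroup.center (P : Subgroup C)))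
    have h2 : 2 ∣ Nat.card (Subgroup.center (P : Subgroup C)) := by
      have h1 : 1 < Nat.card (Subgroup.center (P : Subgroup C)) := Finite.one_lt_card
      rw [hj] at h1 ⊢
      rcases j with - | j
      · simp at h1
      · exact dvd_pow_self 2 (Nat.succ_ne_zero j)
    obtain ⟨v, hv⟩ := exists_prime_orderOf_dvd_card' (G := Subgroup.center (P : Subgroup C)) 2 h2
    have hvc := Subgroup.mem_center_iff.mp v.2
    have hvz : Commute (((v : (P : Subgroup C)) : C) : G) z :=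
      (congrArg (fun u : (P : Subgroup C) => ((u : C) : G)) (hvc ⟨z', hzP⟩)).symm
    rcases F.eq_one_or_z h10 ((v : (P : Subgroup C)) : C).2 hvz
      ⟨1, by
        have h := pow_orderOf_eq_one v
        rw [hv] at h
        exact congrArg (fun u : Subgroup.center (P : Subgroup C) => (((u : (P : Subgroup C)) : C) : G)) h⟩
      with h | h
    · rw [orderOf_eq_prime_iff] at hv
      exact absurd (Subtype.ext (Subtype.ext (Subtype.ext h))) hv.2
    · intro x hx
      have h' := congrArg (fun u : (P : Subgroup C) => ((u : C) : G)) (hvc ⟨x, hx⟩)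
      simp only [Subgroup.coe_mul, h] at h'
      exact h'
  obtain ⟨g, hg⟩ := MulAction.exists_smul_eq C Q P
  have hmem : g * w' * g⁻¹ ∈ (P : Subgroup C) := by
    have hh : g * w' * g⁻¹ ∈ ((g • Q : Sylow 2 C) : Subgroup C) := by
      rw [Sylow.smul_def]
      exact ⟨w', hQ (Subgroup.mem_zpowers _), rfl⟩
    rw [hg] at hh
    exact hh
  rcases F.eq_one_or_z h10 (g * w' * g⁻¹).2 (hcen _ hmem)
    ⟨1, by
      show ((g : G) * w * (g : G)⁻¹) ^ 2 ^ 1 = 1
      rw [pow_one, conj_pow, pow_two, hw2]; group⟩ with h | h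
  · exact absurd (conj_eq_one_iff.mp (show (g : G) * w * (g : G)⁻¹ = 1 from h)) hw1
  · refine ⟨(g : G)⁻¹, inv_mem g.2, ?_⟩
    rw [← show (g : G) * w * (g : G)⁻¹ = z from h]
    group

/-- The normaliser of `A` in the centraliser of `a * b` is the centraliser of `A` extended by `t`. -/
theorem normalizer_dichotomy [Finite G] (h10 : n ≤ 10) {g : G} (hy : Commute g (F.a * F.b))
    (hn : ∀ x ∈ F.baseGroup h10, g * x * g⁻¹ ∈ F.baseGroup h10 ∧ g⁻¹ * x * g ∈ F.baseGroup h10) :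
    g ∈ Subgroup.centralizer (F.baseGroup h10 : Set G) ∨
      g * F.t ∈ Subgroup.centralizer (F.baseGroup h10 : Set G) := by
  have hw : g * z * g⁻¹ ∈ Subgroup.centralizer (F.baseGroup h10 : Set G) := by
    rw [Subgroup.mem_centralizer_iff]
    intro x hx
    have h := (F.baseGroup_comm h10 (hn x hx).2).eq
    calc x * (g * z * g⁻¹) = g * (g⁻¹ * x * g * z) * g⁻¹ := by group
      _ = g * (z * (g⁻¹ * x * g)) * g⁻¹ := by rw [h]
      _ = _ := by group
  obtain ⟨m, hm, hmz⟩ := F.exists_conj_in_cent h10 hw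
    (by rw [show g * z * g⁻¹ * (g * z * g⁻¹) = g * (z * z) * g⁻¹ by group, S.z_sq]; group)
    (fun h => S.z_ne_one (conj_eq_one_iff.mp h))
  set h := m⁻¹ * g with hh
  have hhz : Commute h z := by
    have e : h * z * h⁻¹ = z := by
      rw [hh, show m⁻¹ * g * z * (m⁻¹ * g)⁻¹ = m⁻¹ * (g * z * g⁻¹) * m by group, ← hmz]; group
    exact mul_inv_eq_iff_eq_mul.mp e
  obtain ⟨hma, hmb, hmc⟩ := (F.mem_cent_baseGroup h10).mp hm
  have hA : ∀ x ∈ F.baseGroup h10, h * x * h⁻¹ = g * x * g⁻¹ := by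
    intro x hx
    have := (Subgroup.mem_centralizer_iff.mp (inv_mem hm)) _ (hn x hx).1
    calc h * x * h⁻¹ = m⁻¹ * (g * x * g⁻¹) * m := by rw [hh]; group
      _ = g * x * g⁻¹ * m⁻¹ * m := by rw [this]
      _ = _ := by group
  have hword : ∀ x ∈ F.baseGroup h10, ∃ i j k : ℕ,
      S.img h * S.img x * (S.img h)⁻¹ = a0 h9 ^ i * b0 h9 ^ j * c0 h9 ^ k := by
    intro x hx
    obtain ⟨i, j, k, hijk⟩ := (hn x hx).1
    exact ⟨i, j, k, by rw [← S.img_conj hhz (F.baseGroup_comm h10 hx), hA x hx, hijk, F.img_word]⟩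
  have hyh : S.img h * (a0 h9 * b0 h9) * (S.img h)⁻¹ = a0 h9 * b0 h9 := by
    rw [← F.img_y, ← S.img_conj hhz F.y_comm, hA _ (F.y_mem h10), hy.eq, mul_inv_cancel_right]
  have ha := hword _ (F.a_mem h10)
  have hb := hword _ (F.b_mem h10)
  have hc := hword _ (F.c_mem h10)
  rw [F.img_a] at ha
  rw [F.img_b] at hb
  rw [F.img_c] at hc
  have back : ∀ u : G, Commute u z → Commute (S.img u) (a0 h9) → Commute (S.img u) (b0 h9) →
      Commute (S.img u) (c0 h9) → u ∈ Subgroup.centralizer (F.baseGroup h10 : Set G) := by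
    intro u hu h1 h2 h3
    rw [F.mem_cent_baseGroup h10]
    exact ⟨(S.commute_of_img F.a_comm hu F.a_odd (by rw [F.img_a]; exact h1.symm)).symm,
      (S.commute_of_img F.b_comm hu F.b_odd (by rw [F.img_b]; exact h2.symm)).symm,
      (S.commute_of_img F.c_comm hu F.c_odd (by rw [F.img_c]; exact h3.symm)).symm⟩
  rcases E_normalizer h9 h10 (S.sign_img h) hyh ha hb hc with ⟨h1, h2, h3⟩ | ⟨h1, h2, h3⟩
  · left
    have := mul_mem hm (back h hhz h1 h2 h3)
    rwa [hh, mul_inv_cancel_left] at this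
  · right
    rw [← F.img_t, ← S.img_mul hhz F.t_comm] at h1 h2 h3
    have := mul_mem hm (back _ (hhz.mul_left F.t_comm) h1 h2 h3)
    rwa [hh, ← mul_assoc, mul_inv_cancel_left] at this

theorem t_normalizes (h10 : n ≤ 10) {x : G} (hx : x ∈ F.baseGroup h10) :
    F.t * x * F.t⁻¹ ∈ F.baseGroup h10 := by
  obtain ⟨i, j, k, rfl⟩ := hx
  rw [← conj_mul, ← conj_mul, ← conj_pow, ← conj_pow, ← conj_pow, F.t_conj_a h10,
    F.t_conj_b h10, F.t_conj_c h10]
  exact mul_mem (mul_mem (pow_mem (F.b_mem h10) i) (pow_mem (F.a_mem h10) j))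
    (pow_mem (inv_mem (F.c_mem h10)) k)

theorem small_false [Finite G] (h10 : n ≤ 10)
    (h81 : ¬ 81 ∣ Nat.card (Subgroup.centralizer ({F.c} : Set G))) : False := by
  classical
  haveI : Fact (Nat.Prime 3) := ⟨Nat.prime_three⟩
  set A := F.baseGroup h10 with hA
  set C := Subgroup.centralizer (A : Set G) with hC
  have hmax : ∀ T : Subgroup G, IsPGroup 3 T → A ≤ T → (∀ x ∈ T, Commute x (F.a * F.b)) →
      T = A := by
    intro T hT hAT hTy
    by_contra hne
    have hlt : A.subgroupOf T < ⊤ := by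
      rw [lt_top_iff_ne_top, Ne, Subgroup.subgroupOf_eq_top]
      exact fun h => hne (le_antisymm h hAT)
    haveI := hT.isNilpotent
    obtain ⟨g, hgN, hgA⟩ := SetLike.exists_of_lt (Group.normalizerCondition_of_isNilpotent _ hlt)
    have hgA' : (g : G) ∉ A := fun h => hgA (Subgroup.mem_subgroupOf.mpr h)
    have hnorm : ∀ x ∈ A, (g : G) * x * (g : G)⁻¹ ∈ A ∧ (g : G)⁻¹ * x * (g : G) ∈ A := by
      intro x hx
      have h1 := (Subgroup.mem_normalizer_iff.mp hgN ⟨x, hAT hx⟩).mp (Subgroup.mem_subgroupOf.mpr hx)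
      have h2 := (Subgroup.mem_normalizer_iff''.mp hgN ⟨x, hAT hx⟩).mp (Subgroup.mem_subgroupOf.mpr hx)
      exact ⟨Subgroup.mem_subgroupOf.mp h1, Subgroup.mem_subgroupOf.mp h2⟩
    have hgC : (g : G) ∈ C := by
      rcases F.normalizer_dichotomy h10 (hTy _ g.2) hnorm with h | h
      · exact h
      · have hsq : (g : G) ^ 2 ∈ C := by
          have htn : F.t * ((g : G) * F.t) * F.t⁻¹ ∈ C := by
            rw [Subgroup.mem_centralizer_iff]
            intro x hx
            have hx' := F.t_normalizes h10 hx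
            rw [F.t_inv] at hx' ⊢
            have h' := Subgroup.mem_centralizer_iff.mp h _ hx'
            calc x * (F.t * ((g : G) * F.t) * F.t)
                = F.t * (F.t * x * F.t * ((g : G) * F.t)) * F.t := by
                  rw [← mul_assoc F.t (F.t * x * F.t), ← mul_assoc F.t (F.t * x), ← mul_assoc F.t F.t,
                    F.t_sq]
                  group
              _ = F.t * ((g : G) * F.t * (F.t * x * F.t)) * F.t := by rw [h']
              _ = _ := by
                  simp only [mul_assoc]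
                  rw [F.t_sq]
                  group
          have := mul_mem h htn
          rw [show (g : G) * F.t * (F.t * ((g : G) * F.t) * F.t⁻¹) = (g : G) * (F.t * F.t) * (g : G) by group,
            F.t_sq, mul_one, ← pow_two] at this
          exact this
        obtain ⟨k, hk⟩ := hT g
        have hk' : (g : G) ^ 3 ^ k = 1 := congrArg Subtype.val hk
        obtain ⟨r, hr⟩ : Odd (3 ^ k) := Odd.pow (by decide)
        rw [hr] at hk'
        have he : (g : G) = ((g : G) ^ 2) ^ (r + 1) := by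
          rw [← pow_mul, show 2 * (r + 1) = 2 * r + 1 + 1 by ring, pow_succ, hk', one_mul]
        rw [he]
        exact pow_mem hsq _
    have hAC : A ≤ C := fun x hx =>
      Subgroup.mem_centralizer_iff.mpr fun y hy => F.baseGroup_mul_comm h10 hy hx
    obtain ⟨j, hj⟩ := IsPGroup.iff_card.mp (hT.to_le (inf_le_left : T ⊓ C ≤ T))
    have hAlt : A < T ⊓ C := lt_of_le_of_ne (le_inf hAT hAC) fun h =>
      hgA' (h ▸ (⟨g.2, hgC⟩ : (g : G) ∈ T ⊓ C))
    have hcard : Nat.card A < Nat.card (T ⊓ C : Subgroup G) := by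
      rcases lt_or_eq_of_le (Subgroup.card_le_of_le hAlt.le) with h | h
      · exact h
      · exact absurd (Subgroup.eq_of_le_of_card_ge hAlt.le h.ge) hAlt.ne
    rw [hA, F.card_baseGroup h10, hj, show (27 : ℕ) = 3 ^ 3 by norm_num] at hcard
    have hj4 : 4 ≤ j := (Nat.pow_lt_pow_iff_right (by norm_num)).mp hcard
    refine h81 ((show 81 ∣ Nat.card (T ⊓ C : Subgroup G) by
      rw [hj, show (81 : ℕ) = 3 ^ 4 by norm_num]; exact pow_dvd_pow 3 hj4).trans
      (Subgroup.card_dvd_of_le fun x hx => ?_))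
    exact Subgroup.mem_centralizer_singleton_iff.mpr ((F.mem_cent_baseGroup h10).mp hx.2).2.2.eq
  -- pass to the centraliser of `a * b` modulo `⟨a * b⟩`
  set X := Subgroup.centralizer ({F.a * F.b} : Set G) with hX
  have hAX : A ≤ X := fun x hx =>
    Subgroup.mem_centralizer_singleton_iff.mpr (F.baseGroup_mul_comm h10 hx (F.y_mem h10))
  let y' : X := ⟨F.a * F.b, hAX (F.y_mem h10)⟩
  haveI hYn : (Subgroup.zpowers y').Normal := by
    refine ⟨fun v hv g => ?_⟩
    obtain ⟨k, rfl⟩ := Subgroup.mem_zpowers_iff.mp hv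
    have hc : Commute g y' := Subtype.ext (Subgroup.mem_centralizer_singleton_iff.mp g.2)
    rw [(hc.zpow_right k).eq, mul_inv_cancel_right]
    exact hv
  have hP : IsPGroup 3 (A.subgroupOf X) :=
    (F.isPGroup_baseGroup h10).of_equiv (Subgroup.subgroupOfEquivOfLe hAX).symm
  obtain ⟨P, hPle⟩ := hP.exists_le_sylow
  have hPA : ∀ x : X, x ∈ (P : Subgroup X) ↔ (x : G) ∈ A := by
    have hm := hmax ((P : Subgroup X).map X.subtype) (P.2.map _)
      (fun x hx => ⟨⟨x, hAX hx⟩, hPle (Subgroup.mem_subgroupOf.mpr hx), rfl⟩)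
      (by rintro _ ⟨v, -, rfl⟩; exact Subgroup.mem_centralizer_singleton_iff.mp v.2)
    intro x
    rw [← hm]
    exact ⟨fun h => ⟨x, h, rfl⟩, fun ⟨v, hv, hvx⟩ => Subtype.ext hvx ▸ hv⟩
  let q : X →* X ⧸ Subgroup.zpowers y' := QuotientGroup.mk' _
  have hqs : Function.Surjective q := QuotientGroup.mk'_surjective _
  let Pb := P.mapSurjective hqs
  have hPb : ∀ v, v ∈ (Pb : Subgroup (X ⧸ Subgroup.zpowers y')) ↔
      ∃ x : X, (x : G) ∈ A ∧ q x = v := by
    intro v
    rw [Sylow.coe_mapSurjective, Subgroup.mem_map]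
    simp only [hPA]
  have hpre : ∀ x : X, q x ∈ (Pb : Subgroup (X ⧸ Subgroup.zpowers y')) → (x : G) ∈ A := by
    intro x hx
    obtain ⟨v, hv, hvx⟩ := (hPb _).mp hx
    obtain ⟨k, hk⟩ := Subgroup.mem_zpowers_iff.mp (QuotientGroup.eq.mp hvx)
    have : (x : G) = (v : G) * (F.a * F.b) ^ k := by
      have := congrArg (fun u : X => ((u : X) : G)) hk
      simp only [SubgroupClass.coe_zpow, Subgroup.coe_mul, Subgroup.coe_inv] at this
      rw [show ((y' : X) : G) = F.a * F.b from rfl] at this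
      rw [this, mul_inv_cancel_left]
    rw [this]
    exact mul_mem hv (zpow_mem (F.y_mem h10) k)
  have hab : IsMulCommutative (Pb : Subgroup (X ⧸ Subgroup.zpowers y')) := by
    refine ⟨⟨fun u v => Subtype.ext ?_⟩⟩
    obtain ⟨x, hx, hxu⟩ := (hPb _).mp u.2
    obtain ⟨w, hw, hwv⟩ := (hPb _).mp v.2
    show (u : X ⧸ Subgroup.zpowers y') * v = v * u
    rw [← hxu, ← hwv, ← map_mul, ← map_mul]
    exact congrArg q (Subtype.ext (F.baseGroup_mul_comm h10 hx hw))
  let a' : X := ⟨F.a, hAX (F.a_mem h10)⟩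
  let c' : X := ⟨F.c, hAX (F.c_mem h10)⟩
  have hqy : ∀ v w : X, q v = q w → ∃ j : Fin 3,
      S.img (v : G)⁻¹ * S.img (w : G) = (a0 h9 * b0 h9) ^ (j : ℕ) ∨
        ¬ (Commute (v : G) z ∧ Commute (w : G) z) := by
    intro v w h
    obtain ⟨k, hk⟩ := Subgroup.mem_zpowers_iff.mp (QuotientGroup.eq.mp h)
    have hk' := congrArg (fun u : X => ((u : X) : G)) hk
    simp only [SubgroupClass.coe_zpow, Subgroup.coe_mul, Subgroup.coe_inv] at hk'
    rw [show ((y' : X) : G) = F.a * F.b from rfl, ← zpow_mod_orderOf, F.y_ord h10] at hk'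
    obtain ⟨j, hj⟩ := Int.eq_ofNat_of_zero_le (Int.emod_nonneg k (by norm_num : (3 : ℤ) ≠ 0))
    have hj3 : j < 3 := by
      have := Int.emod_lt_of_pos k (by norm_num : (0 : ℤ) < 3)
      omega
    refine ⟨⟨j, hj3⟩, ?_⟩
    by_cases hc : Commute (v : G) z ∧ Commute (w : G) z
    · left
      rw [show ((3 : ℕ) : ℤ) = 3 from rfl, hj, zpow_natCast] at hk'
      rw [← S.img_mul hc.1.inv_left hc.2, ← hk', S.img_pow F.y_comm, F.img_y]
    · exact Or.inr hc
  obtain ⟨hac0, ha0, hc20⟩ := c0_not_mem h9 h10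
  have hna : q a' ≠ 1 := by
    intro h
    obtain ⟨j, hj | hj⟩ := hqy 1 a' (by rw [h, map_one])
    · rw [OneMemClass.coe_one, inv_one, S.img_one, one_mul, F.img_a] at hj
      exact ha0 j hj.symm
    · exact hj ⟨Commute.one_left z, F.a_comm⟩
  have hncq : ∀ i : ℕ, q a' ^ i ≠ q c' := by
    intro i h
    have ha3 : q a' ^ 3 = 1 := by
      rw [← map_pow, show a' ^ 3 = 1 from Subtype.ext F.a_pow3, map_one]
    rw [pow_eq_pow_mod i ha3, ← map_pow] at h
    obtain ⟨j, hj | hj⟩ := hqy _ _ h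
    · rw [SubmonoidClass.coe_pow, S.img_inv (F.a_comm.pow_left _), S.img_pow F.a_comm, F.img_a,
        F.img_c, inv_mul_eq_iff_eq_mul] at hj
      exact hac0 ⟨i % 3, Nat.mod_lt _ (by norm_num)⟩ j hj.symm
    · exact hj ⟨F.a_comm.pow_left _, F.c_comm⟩
  have hnc : ¬ IsCyclic (Pb : Subgroup (X ⧸ Subgroup.zpowers y')) := by
    rintro ⟨⟨g, hg⟩⟩
    obtain ⟨x, hx, hxg⟩ := (hPb _).mp g.2
    have hg3 : (g : X ⧸ Subgroup.zpowers y') ^ 3 = 1 := by
      rw [← hxg, ← map_pow, show x ^ 3 = 1 from Subtype.ext (F.pow3_of_mem h10 hx), map_one]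
    have hpow : ∀ u : X, (u : G) ∈ A → ∃ i : ℕ, q u = (g : X ⧸ Subgroup.zpowers y') ^ i := by
      intro u hu
      obtain ⟨i, hi⟩ := hg ⟨q u, (hPb _).mpr ⟨u, hu, rfl⟩⟩
      refine ⟨(i % 3).toNat, ?_⟩
      have := congrArg (fun v : (Pb : Subgroup (X ⧸ Subgroup.zpowers y')) => (v : X ⧸ Subgroup.zpowers y')) hi
      simp only [SubgroupClass.coe_zpow] at this
      rw [← this, ← zpow_natCast, Int.toNat_of_nonneg (Int.emod_nonneg i (by norm_num)),
        zpow_eq_zpow_emod' i hg3]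
      rfl
    obtain ⟨i, hi⟩ := hpow a' (F.a_mem h10)
    obtain ⟨k, hk⟩ := hpow c' (F.c_mem h10)
    rw [pow_eq_pow_mod i hg3] at hi
    have hi' : i % 3 = 1 ∨ i % 3 = 2 := by
      have h0 : i % 3 ≠ 0 := fun h => hna (by rw [hi, h, pow_zero])
      omega
    rcases hi' with h | h <;> rw [h] at hi
    · exact hncq k (by rw [hi, hk, pow_one])
    · refine hncq (2 * k) ?_
      rw [hi, hk, ← pow_mul, show 2 * (2 * k) = k + 3 * k by ring, pow_add, pow_mul, hg3, one_pow,
        mul_one]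
  -- the inertial index is two
  let t' : X := ⟨F.t, Subgroup.mem_centralizer_singleton_iff.mpr (F.t_comm_y h10).eq⟩
  have ht'C : q t' ∉ Subgroup.centralizer ((Pb : Subgroup (X ⧸ Subgroup.zpowers y')) :
      Set (X ⧸ Subgroup.zpowers y')) := by
    intro h
    have h' := Subgroup.mem_centralizer_iff.mp h (q c') ((hPb _).mpr ⟨c', F.c_mem h10, rfl⟩)
    have e : q (c'⁻¹) = q c' := by
      rw [show (c'⁻¹ : X) = t' * c' * t'⁻¹ from Subtype.ext (F.t_conj_c h10).symm, map_mul, map_mul,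
        ← h', map_inv, mul_inv_cancel_right]
    obtain ⟨j, hj | hj⟩ := hqy _ _ e
    · rw [Subgroup.coe_inv, inv_inv, F.img_c, ← pow_two] at hj
      exact hc20 j hj.symm
    · exact hj ⟨F.c_comm.inv_left, F.c_comm⟩
  have ht'N : q t' ∈ Subgroup.normalizer ((Pb : Subgroup (X ⧸ Subgroup.zpowers y')) :
      Set (X ⧸ Subgroup.zpowers y')) := by
    have h1 : ∀ v, v ∈ (Pb : Subgroup (X ⧸ Subgroup.zpowers y')) →
        q t' * v * (q t')⁻¹ ∈ (Pb : Subgroup (X ⧸ Subgroup.zpowers y')) := by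
      intro v hv
      obtain ⟨x, hx, rfl⟩ := (hPb _).mp hv
      rw [← map_inv, ← map_mul, ← map_mul]
      exact (hPb _).mpr ⟨_, F.t_normalizes h10 hx, rfl⟩
    rw [Subgroup.mem_normalizer_iff]
    intro v
    refine ⟨h1 v, fun hv => ?_⟩
    have := h1 _ hv
    have ht2 : q t' * q t' = 1 := by
      rw [← map_mul, show t' * t' = 1 from Subtype.ext F.t_sq, map_one]
    rwa [show q t' * (q t' * v * (q t')⁻¹) * (q t')⁻¹ = (q t' * q t') * v * (q t' * q t')⁻¹ by group,
      ht2, one_mul, inv_one, mul_one] at this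
  have hidx : ((Subgroup.centralizer ((Pb : Subgroup (X ⧸ Subgroup.zpowers y')) :
      Set (X ⧸ Subgroup.zpowers y'))).subgroupOf (Subgroup.normalizer
        ((Pb : Subgroup (X ⧸ Subgroup.zpowers y')) : Set (X ⧸ Subgroup.zpowers y')))).index = 2 := by
    rw [Subgroup.index_eq_two_iff]
    refine ⟨⟨q t', ht'N⟩, ?_⟩
    rintro ⟨b, hb⟩
    simp only [Subgroup.mem_subgroupOf, Subgroup.coe_mul]
    obtain ⟨g, rfl⟩ := hqs b
    have hn : ∀ x ∈ A, (g : G) * x * (g : G)⁻¹ ∈ A ∧ (g : G)⁻¹ * x * (g : G) ∈ A := by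
      intro x hx
      have hm : q ⟨x, hAX hx⟩ ∈ (Pb : Subgroup (X ⧸ Subgroup.zpowers y')) := (hPb _).mpr ⟨_, hx, rfl⟩
      constructor
      · have := (Subgroup.mem_normalizer_iff.mp hb _).mp hm
        rw [← map_inv, ← map_mul, ← map_mul] at this
        exact hpre _ this
      · have := (Subgroup.mem_normalizer_iff''.mp hb _).mp hm
        rw [← map_inv, ← map_mul, ← map_mul] at this
        exact hpre _ this
    have hmemC : ∀ u : X, (u : G) ∈ C → q u ∈ Subgroup.centralizer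
        ((Pb : Subgroup (X ⧸ Subgroup.zpowers y')) : Set (X ⧸ Subgroup.zpowers y')) := by
      intro u hu
      rw [Subgroup.mem_centralizer_iff]
      intro v hv
      obtain ⟨x, hx, rfl⟩ := (hPb _).mp hv
      rw [← map_mul, ← map_mul]
      exact congrArg q (Subtype.ext (Subgroup.mem_centralizer_iff.mp hu _ hx))
    rcases F.normalizer_dichotomy h10 (Subgroup.mem_centralizer_singleton_iff.mp g.2) hn with h | h
    · refine Or.inr ⟨hmemC g h, fun h' => ht'C ?_⟩
      have := mul_mem (inv_mem (hmemC g h)) h'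
      rwa [inv_mul_cancel_left] at this
    · have hgt := hmemC (g * t') h
      rw [map_mul] at hgt
      refine Or.inl ⟨hgt, fun h' => ht'C ?_⟩
      have := mul_mem (inv_mem h') hgt
      rwa [inv_mul_cancel_left] at this
  let z' : X := ⟨z, Subgroup.mem_centralizer_singleton_iff.mpr F.y_comm.eq.symm⟩
  obtain ⟨h, hhy, hhz⟩ := F.exists_conj_z h10 (u := F.t) (Or.inl rfl)
  let g' : X := ⟨h⁻¹, Subgroup.mem_centralizer_singleton_iff.mpr hhy.inv_left.eq⟩
  refine inverted_sylow_false Pb hab hnc hidx (z := q z') (t := q t') (g := q g') ?_ ?_ ?_ ?_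
  · intro v hv
    obtain ⟨x, hx, rfl⟩ := (hPb _).mp hv
    rw [← map_mul, ← map_mul]
    exact congrArg q (Subtype.ext (F.baseGroup_comm h10 hx).eq.symm)
  · rw [← map_inv, ← map_mul, ← map_mul]
    refine congrArg q (Subtype.ext ?_)
    show h⁻¹ * z * (h⁻¹)⁻¹ = F.t
    calc h⁻¹ * z * (h⁻¹)⁻¹ = h⁻¹ * (h * F.t * h⁻¹) * (h⁻¹)⁻¹ := by rw [hhz]
      _ = F.t := by group
  · rw [← map_mul, show t' * t' = 1 from Subtype.ext F.t_sq, map_one]
  · intro v hv
    obtain ⟨x, hx, rfl⟩ := (hPb _).mp hv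
    obtain ⟨i, j, k, hijk⟩ := hx
    rw [← map_inv, ← map_mul, ← map_mul, eq_inv_iff_mul_eq_one, ← map_mul]
    apply (QuotientGroup.eq_one_iff _).mpr
    refine Subgroup.mem_zpowers_iff.mpr ⟨((i + j : ℕ) : ℤ), Subtype.ext ?_⟩
    simp only [zpow_natCast, SubmonoidClass.coe_pow, Subgroup.coe_mul, Subgroup.coe_inv, hijk]
    show (F.a * F.b) ^ (i + j) = F.t * (F.a ^ i * F.b ^ j * F.c ^ k) * F.t⁻¹ *
      (F.a ^ i * F.b ^ j * F.c ^ k)
    rw [← conj_mul, ← conj_mul, ← conj_pow, ← conj_pow, ← conj_pow, F.t_conj_a h10,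
      F.t_conj_b h10, F.t_conj_c h10, inv_pow]
    have hab' := F.commute_ab h10
    have hac := F.commute_ac h10
    have hbc := F.commute_bc h10
    have hcc : Commute (F.c ^ k)⁻¹ (F.a ^ i * F.b ^ j) :=
      (((hac.symm.pow_pow k i).mul_right (hbc.symm.pow_pow k j))).inv_left
    rw [hab'.mul_pow]
    symm
    calc F.b ^ i * F.a ^ j * (F.c ^ k)⁻¹ * (F.a ^ i * F.b ^ j * F.c ^ k)
        = F.b ^ i * F.a ^ j * ((F.c ^ k)⁻¹ * (F.a ^ i * F.b ^ j)) * F.c ^ k := by group
      _ = F.b ^ i * (F.a ^ j * F.a ^ i) * F.b ^ j := by rw [hcc.eq]; group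
      _ = F.b ^ i * F.a ^ (i + j) * F.b ^ j := by rw [← pow_add, add_comm j i]
      _ = F.a ^ (i + j) * F.b ^ i * F.b ^ j := by rw [(hab'.pow_pow (i + j) i).eq]
      _ = F.a ^ (i + j) * F.b ^ (i + j) := by rw [mul_assoc, ← pow_add]

end Frame

end CfsgLib.AltDoubleCent
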