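import Cfsg.Agent.Lib.AltDoubleCent.Frame
import Cfsg.Agent.Lib.AltDoubleCent.Inverted

/-!
Degrees nine and ten when the centraliser of a three-cycle has no large core: the elementary group
`A = ⟨a, b, c⟩` is a Sylow subgroup of the centraliser of `a * b`.
-/

set_option autoImplicit false
set_option linter.unusedSectionVars false
set_option maxRecDepth 8000

namespace CfsgLib.AltDoubleCent

open Equiv

universe u

variable {G : Type u} [Group G] {n : ℕ} {z : G}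

theorem E_inj (h9 : 9 ≤ n) (h10 : n ≤ 10) :
    ∀ i j k i' j' k' : Fin 3, a0 h9 ^ (i : ℕ) * b0 h9 ^ (j : ℕ) * c0 h9 ^ (k : ℕ) =
      a0 h9 ^ (i' : ℕ) * b0 h9 ^ (j' : ℕ) * c0 h9 ^ (k' : ℕ) → i = i' ∧ j = j' ∧ k = k' := by
  obtain rfl | rfl : n = 9 ∨ n = 10 := by omega
  · (clear h10; revert h9; decide +kernel)
  · (clear h10; revert h9; decide +kernel)

theorem c0_not_mem (h9 : 9 ≤ n) (h10 : n ≤ 10) :
    (∀ i j : Fin 3, a0 h9 ^ (i : ℕ) * (a0 h9 * b0 h9) ^ (j : ℕ) ≠ c0 h9) ∧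
    (∀ j : Fin 3, (a0 h9 * b0 h9) ^ (j : ℕ) ≠ a0 h9) ∧
    (∀ j : Fin 3, (a0 h9 * b0 h9) ^ (j : ℕ) ≠ c0 h9 ^ 2) := by
  obtain rfl | rfl : n = 9 ∨ n = 10 := by omega
  · (clear h10; revert h9; decide +kernel)
  · (clear h10; revert h9; decide +kernel)

namespace Frame

variable {S : Setting G n z} {h9 : 9 ≤ n} (F : Frame S h9)

theorem a_pow3 : F.a ^ 3 = 1 := by rw [← F.a_ord]; exact pow_orderOf_eq_one _

theorem b_pow3 : F.b ^ 3 = 1 := by rw [← F.b_ord]; exact pow_orderOf_eq_one _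

theorem c_pow3 : F.c ^ 3 = 1 := by rw [← F.c_ord]; exact pow_orderOf_eq_one _

/-- The elementary group `⟨a, b, c⟩`. -/
def baseGroup (h10 : n ≤ 10) : Subgroup G where
  carrier := {x | ∃ i j k : ℕ, x = F.a ^ i * F.b ^ j * F.c ^ k}
  one_mem' := ⟨0, 0, 0, by simp⟩
  mul_mem' := by
    rintro x y ⟨i, j, k, rfl⟩ ⟨i', j', k', rfl⟩
    refine ⟨i + i', j + j', k + k', ?_⟩
    have hca := ((F.commute_ac h10).symm.pow_pow k i').eq
    have hcb := ((F.commute_bc h10).symm.pow_pow k j').eq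
    have hba := ((F.commute_ab h10).symm.pow_pow j i').eq
    calc F.a ^ i * F.b ^ j * F.c ^ k * (F.a ^ i' * F.b ^ j' * F.c ^ k')
        = F.a ^ i * F.b ^ j * (F.c ^ k * F.a ^ i') * (F.b ^ j' * F.c ^ k') := by group
      _ = F.a ^ i * (F.b ^ j * F.a ^ i') * (F.c ^ k * F.b ^ j') * F.c ^ k' := by rw [hca]; group
      _ = _ := by rw [hba, hcb, pow_add, pow_add, pow_add]; group
  inv_mem' := by
    rintro x ⟨i, j, k, rfl⟩
    refine ⟨2 * i, 2 * j, 2 * k, ?_⟩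
    have hab := ((F.commute_ab h10).pow_pow (2 * i) (2 * j))
    have hac := ((F.commute_ac h10).pow_pow (2 * i) (2 * k))
    have hbc := ((F.commute_bc h10).pow_pow (2 * j) (2 * k))
    apply inv_eq_of_mul_eq_one_right
    calc F.a ^ i * F.b ^ j * F.c ^ k * (F.a ^ (2 * i) * F.b ^ (2 * j) * F.c ^ (2 * k))
        = F.a ^ i * F.b ^ j * (F.c ^ k * F.a ^ (2 * i)) * (F.b ^ (2 * j) * F.c ^ (2 * k)) := by group
      _ = F.a ^ i * (F.b ^ j * F.a ^ (2 * i)) * (F.c ^ k * F.b ^ (2 * j)) * F.c ^ (2 * k) := by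
          rw [((F.commute_ac h10).symm.pow_pow k (2 * i)).eq]; group
      _ = F.a ^ i * F.a ^ (2 * i) * (F.b ^ j * F.b ^ (2 * j)) * (F.c ^ k * F.c ^ (2 * k)) := by
          rw [((F.commute_ab h10).symm.pow_pow j (2 * i)).eq,
            ((F.commute_bc h10).symm.pow_pow k (2 * j)).eq]; group
      _ = 1 := by
          rw [← pow_add, ← pow_add, ← pow_add, show i + 2 * i = 3 * i by ring,
            show j + 2 * j = 3 * j by ring, show k + 2 * k = 3 * k by ring, pow_mul, pow_mul,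
            pow_mul, F.a_pow3, F.b_pow3, F.c_pow3]
          simp

theorem mem_baseGroup (h10 : n ≤ 10) {x : G} :
    x ∈ F.baseGroup h10 ↔ ∃ i j k : ℕ, x = F.a ^ i * F.b ^ j * F.c ^ k := Iff.rfl

theorem a_mem (h10 : n ≤ 10) : F.a ∈ F.baseGroup h10 := ⟨1, 0, 0, by simp⟩

theorem b_mem (h10 : n ≤ 10) : F.b ∈ F.baseGroup h10 := ⟨0, 1, 0, by simp⟩

theorem c_mem (h10 : n ≤ 10) : F.c ∈ F.baseGroup h10 := ⟨0, 0, 1, by simp⟩

theorem y_mem (h10 : n ≤ 10) : F.a * F.b ∈ F.baseGroup h10 :=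
  mul_mem (F.a_mem h10) (F.b_mem h10)

theorem baseGroup_comm (h10 : n ≤ 10) {x : G} (hx : x ∈ F.baseGroup h10) : Commute x z := by
  obtain ⟨i, j, k, rfl⟩ := hx
  exact ((F.a_comm.pow_left i).mul_left (F.b_comm.pow_left j)).mul_left (F.c_comm.pow_left k)

theorem img_word (i j k : ℕ) :
    S.img (F.a ^ i * F.b ^ j * F.c ^ k) = a0 h9 ^ i * b0 h9 ^ j * c0 h9 ^ k := by
  rw [S.img_mul ((F.a_comm.pow_left i).mul_left (F.b_comm.pow_left j)) (F.c_comm.pow_left k),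
    S.img_mul (F.a_comm.pow_left i) (F.b_comm.pow_left j), S.img_pow F.a_comm, S.img_pow F.b_comm,
    S.img_pow F.c_comm, F.img_a, F.img_b, F.img_c]

theorem baseGroup_mul_comm (h10 : n ≤ 10) {x y : G} (hx : x ∈ F.baseGroup h10)
    (hy : y ∈ F.baseGroup h10) : x * y = y * x := by
  obtain ⟨i, j, k, rfl⟩ := hx
  obtain ⟨i', j', k', rfl⟩ := hy
  have hab := F.commute_ab h10
  have hac := F.commute_ac h10
  have hbc := F.commute_bc h10
  have A : ∀ m, Commute (F.a ^ m) (F.a ^ i' * F.b ^ j' * F.c ^ k') := fun m =>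
    ((Commute.pow_pow_self F.a m i').mul_right (hab.pow_pow m j')).mul_right (hac.pow_pow m k')
  have B : ∀ m, Commute (F.b ^ m) (F.a ^ i' * F.b ^ j' * F.c ^ k') := fun m =>
    ((hab.symm.pow_pow m i').mul_right (Commute.pow_pow_self F.b m j')).mul_right (hbc.pow_pow m k')
  have C : ∀ m, Commute (F.c ^ m) (F.a ^ i' * F.b ^ j' * F.c ^ k') := fun m =>
    ((hac.symm.pow_pow m i').mul_right (hbc.symm.pow_pow m j')).mul_right (Commute.pow_pow_self F.c m k')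
  exact (((A i).mul_left (B j)).mul_left (C k)).eq

theorem word_reduce (i j k : ℕ) :
    F.a ^ i * F.b ^ j * F.c ^ k = F.a ^ (i % 3) * F.b ^ (j % 3) * F.c ^ (k % 3) := by
  rw [← pow_mod_orderOf F.a i, ← pow_mod_orderOf F.b j, ← pow_mod_orderOf F.c k, F.a_ord, F.b_ord,
    F.c_ord]

theorem card_baseGroup [Finite G] (h10 : n ≤ 10) : Nat.card (F.baseGroup h10) = 27 := by
  let f : Fin 3 × Fin 3 × Fin 3 → F.baseGroup h10 := fun p =>
    ⟨F.a ^ (p.1 : ℕ) * F.b ^ (p.2.1 : ℕ) * F.c ^ (p.2.2 : ℕ), _, _, _, rfl⟩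
  have hf : Function.Bijective f := by
    constructor
    · intro p q h
      have h' : S.img (f p : G) = S.img (f q : G) := by rw [h]
      simp only [f, F.img_word] at h'
      obtain ⟨e1, e2, e3⟩ := E_inj h9 h10 _ _ _ _ _ _ h'
      exact Prod.ext e1 (Prod.ext e2 e3)
    · rintro ⟨x, i, j, k, rfl⟩
      refine ⟨(⟨i % 3, Nat.mod_lt _ (by norm_num)⟩, ⟨j % 3, Nat.mod_lt _ (by norm_num)⟩,
        ⟨k % 3, Nat.mod_lt _ (by norm_num)⟩), Subtype.ext ?_⟩
      exact (F.word_reduce i j k).symm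
  rw [← Nat.card_eq_of_bijective f hf]
  simp

theorem isPGroup_baseGroup [Finite G] (h10 : n ≤ 10) : IsPGroup 3 (F.baseGroup h10) :=
  IsPGroup.of_card (n := 3) (by rw [F.card_baseGroup h10]; norm_num)

end Frame

end CfsgLib.AltDoubleCent
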